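import Mathlib

/-!
# Root-type subgroups of the automorphism group of a module over the prime field

The core conjugacy argument: if `Q` has fixed space `ℓ` and is strongly closed in a Sylow subgroup,
two conjugates of `Q` whose fixed spaces meet non-trivially coincide.
-/

set_option autoImplicit false
set_option linter.unusedSectionVars false
set_option linter.unusedVariables false

namespace Cfsg.Agent.Lib.NatRoot

variable {p : ℕ} [hp : Fact p.Prime] {W : Type*} [AddCommGroup W] [Module (ZMod p) W]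

/-- The automorphism group of the module. -/
abbrev Aut' (p : ℕ) [Fact p.Prime] (W : Type*) [AddCommGroup W] [Module (ZMod p) W] := W ≃ₗ[ZMod p] W

@[simp] theorem inv_apply_self' (g : Aut' p W) (w : W) : g⁻¹ (g w) = w := g.symm_apply_apply w
@[simp] theorem apply_inv_self' (g : Aut' p W) (w : W) : g (g⁻¹ w) = w := g.apply_symm_apply w
@[simp] theorem mul_apply' (g h : Aut' p W) (w : W) : (g * h) w = g (h w) := rfl
@[simp] theorem one_apply' (w : W) : (1 : Aut' p W) w = w := rfl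

/-- conjugate subgroup -/
def cj (g : Aut' p W) (Q : Subgroup (Aut' p W)) : Subgroup (Aut' p W) :=
  Q.map (MulAut.conj g).toMonoidHom

theorem mem_cj {g x : Aut' p W} {Q : Subgroup (Aut' p W)} : x ∈ cj g Q ↔ g⁻¹ * x * g ∈ Q := by
  simp only [cj, Subgroup.mem_map]
  constructor
  · rintro ⟨a, ha, rfl⟩
    simpa [mul_assoc] using ha
  · intro h
    exact ⟨_, h, by simp [mul_assoc]⟩

theorem cj_mul (g h : Aut' p W) (Q : Subgroup (Aut' p W)) : cj (g * h) Q = cj g (cj h Q) := by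
  ext x
  simp only [mem_cj, mul_inv_rev, mul_assoc]

theorem card_cj (g : Aut' p W) (Q : Subgroup (Aut' p W)) : Nat.card (cj g Q) = Nat.card Q :=
  Nat.card_congr (Q.equivMapOfInjective _ (MulAut.conj g).injective).toEquiv.symm

theorem cj_le {g : Aut' p W} {Q K : Subgroup (Aut' p W)} (hg : g ∈ K) (hQ : Q ≤ K) : cj g Q ≤ K := by
  intro x hx
  have h := hQ (mem_cj.1 hx)
  have : x = g * (g⁻¹ * x * g) * g⁻¹ := by group
  rw [this]
  exact K.mul_mem (K.mul_mem hg h) (K.inv_mem hg)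

theorem isP_cj {g : Aut' p W} {Q : Subgroup (Aut' p W)} (h : IsPGroup p Q) :
    IsPGroup p (cj g Q) := by
  intro x
  obtain ⟨k, hk⟩ := h ⟨g⁻¹ * x.1 * g, mem_cj.1 x.2⟩
  refine ⟨k, ?_⟩
  apply Subtype.ext
  have h1 : (g⁻¹ * x.1 * g) ^ p ^ k = 1 := by
    simpa using congrArg Subtype.val hk
  have h2 : (g⁻¹ * x.1 * g) ^ p ^ k = g⁻¹ * x.1 ^ p ^ k * g := by
    have := conj_pow (a := g⁻¹) (b := x.1) (i := p ^ k)
    simpa using this
  rw [h2] at h1
  have h3 : x.1 ^ p ^ k = g * (g⁻¹ * x.1 ^ p ^ k * g) * g⁻¹ := by group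
  simp only [Subgroup.coe_pow, Subgroup.coe_one]
  rw [h3, h1]
  group

/-- image of a subgroup under an automorphism -/
def cjL (g : Aut' p W) (l : AddSubgroup W) : AddSubgroup W :=
  l.map (g.toLinearMap.toAddMonoidHom)

theorem mem_cjL {g : Aut' p W} {l : AddSubgroup W} {w : W} : w ∈ cjL g l ↔ g⁻¹ w ∈ l := by
  simp only [cjL, AddSubgroup.mem_map]
  constructor
  · rintro ⟨a, ha, rfl⟩
    simpa using ha
  · intro h
    exact ⟨_, h, by simp⟩

theorem card_cjL (g : Aut' p W) (l : AddSubgroup W) : Nat.card (cjL g l) = Nat.card l := by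
  refine Nat.card_congr (Equiv.symm ?_)
  exact (AddSubgroup.equivMapOfInjective l (g.toLinearMap.toAddMonoidHom) g.injective).toEquiv

/-- Elements acting trivially on the factors of a chain of length three. -/
def uni (A B : AddSubgroup W) (hBA : B ≤ A) : Subgroup (Aut' p W) where
  carrier := {x | (∀ w, x w - w ∈ A) ∧ (∀ w ∈ A, x w - w ∈ B) ∧ ∀ w ∈ B, x w = w}
  one_mem' := by
    refine ⟨fun w => ?_, fun w _ => ?_, fun w _ => rfl⟩
    · simp
    · simp
  mul_mem' := by
    rintro x y ⟨h1, h2, h3⟩ ⟨k1, k2, k3⟩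
    refine ⟨fun w => ?_, fun w hw => ?_, fun w hw => ?_⟩
    · have e : (x * y) w - w = (x (y w) - y w) + (y w - w) := by simp
      rw [e]
      exact A.add_mem (h1 _) (k1 _)
    · have hy : y w ∈ A := by
        have := A.add_mem (hBA (k2 w hw)) hw
        simpa using this
      have e : (x * y) w - w = (x (y w) - y w) + (y w - w) := by simp
      rw [e]
      exact B.add_mem (h2 _ hy) (k2 w hw)
    · simp only [mul_apply']
      rw [k3 w hw, h3 w hw]
  inv_mem' := by
    rintro x ⟨h1, h2, h3⟩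
    have hB : ∀ w ∈ B, x⁻¹ w = w := by
      intro w hw
      have : x⁻¹ (x w) = w := inv_apply_self' _ _
      rwa [h3 w hw] at this
    have hA : ∀ w ∈ A, x⁻¹ w - w ∈ B := by
      intro w hw
      have e : x⁻¹ w = w - (x w - w) := by
        have hx : x (w - (x w - w)) = w := by
          rw [map_sub, h3 _ (h2 w hw)]
          abel
        have : x⁻¹ (x (w - (x w - w))) = w - (x w - w) := inv_apply_self' _ _
        rw [hx] at this
        exact this
      rw [e]
      have : w - (x w - w) - w = -(x w - w) := by abel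
      rw [this]
      exact B.neg_mem (h2 w hw)
    have hA' : ∀ w ∈ A, x⁻¹ w ∈ A := by
      intro w hw
      have := A.add_mem (hBA (hA w hw)) hw
      simpa using this
    refine ⟨fun w => ?_, hA, hB⟩
    have hc := h1 w
    have e : x⁻¹ w = w - x⁻¹ (x w - w) := by
      have : x⁻¹ (x w - w) = w - x⁻¹ w := by
        rw [map_sub, inv_apply_self']
      rw [this]
      abel
    rw [e]
    have : w - x⁻¹ (x w - w) - w = - x⁻¹ (x w - w) := by abel
    rw [this]
    exact A.neg_mem (hA' _ hc)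

theorem mem_uni {A B : AddSubgroup W} {hBA : B ≤ A} {x : Aut' p W} :
    x ∈ uni A B hBA ↔ (∀ w, x w - w ∈ A) ∧ (∀ w ∈ A, x w - w ∈ B) ∧ ∀ w ∈ B, x w = w := Iff.rfl

/-- The chain group is a `p`-group. -/
theorem isP_uni (A B : AddSubgroup W) (hBA : B ≤ A) : IsPGroup p (uni (p := p) A B hBA) := by
  intro x
  refine ⟨2, ?_⟩
  apply Subtype.ext
  obtain ⟨h1, h2, h3⟩ := x.2
  -- work in the endomorphism ring
  let X : Module.End (ZMod p) W := x.1.toLinearMap
  let D : Module.End (ZMod p) W := X - 1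
  have hD : ∀ w, D w = x.1 w - w := fun w => rfl
  have hD3 : D ^ 3 = 0 := by
    ext w
    have a1 : D w ∈ A := h1 w
    have a2 : D (D w) ∈ B := h2 _ a1
    have a3 : D (D (D w)) = 0 := by
      rw [hD (D (D w)), h3 _ a2, sub_self]
    simpa [pow_succ, Module.End.mul_apply] using a3
  have hX : X = 1 + D := by simp [D]
  have hcp : ((p : ℕ) : Module.End (ZMod p) W) = 0 := by
    ext w
    simp [Module.End.natCast_apply, ZModModule.char_nsmul_eq_zero]
  have hpow : X ^ (p ^ 2) = 1 := by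
    rw [hX]
    have hc : Commute (1 : Module.End (ZMod p) W) D := Commute.one_left D
    rw [hc.add_pow]
    rw [Finset.sum_eq_single (p ^ 2)]
    · simp
    · intro b hb hne
      have hb' : b < p ^ 2 := by
        have := Finset.mem_range.1 hb
        omega
      by_cases hk : p ^ 2 - b < 3
      · by_cases hb0 : b = 0
        · subst hb0
          have h4 : 4 ≤ p ^ 2 := by
            have := hp.out.two_le
            nlinarith
          omega
        · have hdvd : p ∣ (p ^ 2).choose b := hp.out.dvd_choose_pow hb0 (by omega)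
          obtain ⟨c, hc'⟩ := hdvd
          rw [hc']
          push_cast
          rw [hcp]
          simp
      · have : D ^ (p ^ 2 - b) = 0 := by
          obtain ⟨r, hr⟩ : ∃ r, p ^ 2 - b = 3 + r := ⟨p ^ 2 - b - 3, by omega⟩
          rw [hr, pow_add, hD3, zero_mul]
        rw [this]
        simp
    · intro h
      simp at h
  have : (x.1 ^ p ^ 2 : Aut' p W) = 1 := by
    ext w
    have e : ∀ n : ℕ, (x.1 ^ n : Aut' p W) w = (X ^ n) w := by
      intro n
      induction n generalizing w with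
      | zero => simp
      | succ n ih =>
        rw [pow_succ, pow_succ, mul_apply', Module.End.mul_apply, ih]
        rfl
    rw [e, hpow]
    rfl
  simpa using this

section sys

variable [Finite W]

instance finite_aut : Finite (Aut' p W) := by
  haveI : Finite (W →ₗ[ZMod p] W) := by
    apply Finite.of_injective (fun f : W →ₗ[ZMod p] W => (f : W → W))
    exact DFunLike.coe_injective
  apply Finite.of_injective (fun f : Aut' p W => (f.toLinearMap))
  intro a b hab
  exact LinearEquiv.toLinearMap_injective hab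

theorem isP_zpowers {H : Type*} [Group H] {a : H} {k : ℕ} (h : a ^ p ^ k = 1) :
    IsPGroup p (Subgroup.zpowers a) := by
  intro x
  refine ⟨k, ?_⟩
  obtain ⟨i, hi⟩ := x.2
  apply Subtype.ext
  simp only [Subgroup.coe_pow, Subgroup.coe_one]
  rw [← hi, ← zpow_natCast, ← zpow_mul, mul_comm, zpow_mul, zpow_natCast, h, one_zpow]

/-- Hypotheses of the core argument. -/
structure Sys (G T Q : Subgroup (Aut' p W)) (l : AddSubgroup W) : Prop where
  hQG : Q ≤ G
  hQT : Q ≤ T
  hTp : IsPGroup p T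
  hconj : ∀ P : Subgroup (Aut' p W), P ≤ G → IsPGroup p P → ∃ y ∈ G, ∀ x ∈ P, y⁻¹ * x * y ∈ T
  hSC : ∀ t ∈ T, ∀ g ∈ G, ∀ a ∈ Q, g * a * g⁻¹ = t → t ∈ Q
  hfix : ∀ a ∈ Q, a ≠ 1 → ∀ w, a w = w ↔ w ∈ l
  hcomm : ∀ a ∈ Q, ∀ w, a w - w ∈ l
  hcard : Nat.card Q = Nat.card l

variable {G T Q : Subgroup (Aut' p W)} {l : AddSubgroup W}

theorem Sys.isPQ (S : Sys G T Q l) : IsPGroup p Q := S.hTp.to_le S.hQT

theorem Sys.fix_cj (S : Sys G T Q l) {g x : Aut' p W} (hx : x ∈ cj g Q) (hx1 : x ≠ 1) (w : W) :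
    x w = w ↔ w ∈ cjL g l := by
  have ha := mem_cj.1 hx
  have hne : g⁻¹ * x * g ≠ 1 := by
    intro h
    apply hx1
    have : x = g * (g⁻¹ * x * g) * g⁻¹ := by group
    rw [this, h]
    group
  rw [mem_cjL, ← S.hfix _ ha hne]
  simp only [mul_apply']
  constructor
  · intro h
    rw [apply_inv_self', h]
  · intro h
    rw [apply_inv_self'] at h
    have := congrArg g h
    simpa using this

theorem Sys.fix_line (S : Sys G T Q l) {g x : Aut' p W} (hx : x ∈ cj g Q) {w : W}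
    (hw : w ∈ cjL g l) : x w = w := by
  by_cases hx1 : x = 1
  · rw [hx1]; rfl
  · exact (S.fix_cj hx hx1 w).2 hw

theorem Sys.comm_cj (S : Sys G T Q l) {g x : Aut' p W} (hx : x ∈ cj g Q) (w : W) :
    x w - w ∈ cjL g l := by
  have ha := mem_cj.1 hx
  rw [mem_cjL, map_sub]
  have := S.hcomm _ ha (g⁻¹ w)
  simpa using this

theorem Sys.card_eq (S : Sys G T Q l) (g : Aut' p W) : Nat.card (cj g Q) = Nat.card (cjL g l) := by
  rw [card_cj, card_cjL, S.hcard]

/-- A `p`-subgroup conjugated into `T`: elements conjugate into `Q` land in the conjugate of `Q`. -/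
theorem Sys.mem_of_conj (S : Sys G T Q l) {y g z : Aut' p W} (hy : y ∈ G) (hg : g ∈ G)
    (h1 : y⁻¹ * z * y ∈ T) (h2 : z ∈ cj g Q) : z ∈ cj y Q := by
  rw [mem_cj]
  refine S.hSC _ h1 (y⁻¹ * g) (G.mul_mem (G.inv_mem hy) hg) _ (mem_cj.1 h2) ?_
  group

/-- Two conjugates of `Q` in a common `p`-subgroup coincide. -/
theorem Sys.eq_of_common (S : Sys G T Q l) {P : Subgroup (Aut' p W)} (hP : P ≤ G)
    (hPp : IsPGroup p P) {g₁ g₂ : Aut' p W} (h₁ : g₁ ∈ G) (h₂ : g₂ ∈ G)
    (hl₁ : cj g₁ Q ≤ P) (hl₂ : cj g₂ Q ≤ P) : cj g₁ Q = cj g₂ Q := by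
  obtain ⟨y, hy, hyT⟩ := S.hconj P hP hPp
  have key : ∀ g ∈ G, cj g Q ≤ P → cj g Q = cj y Q := by
    intro g hg hle
    apply Subgroup.eq_of_le_of_card_ge
    · intro z hz
      exact S.mem_of_conj hy hg (hyT z (hle hz)) hz
    · rw [card_cj, card_cj]
  rw [key g₁ h₁ hl₁, key g₂ h₂ hl₂]

/-- Conjugates of `Q` with the same fixed space coincide. -/
theorem Sys.eq_of_line (S : Sys G T Q l) {g₁ g₂ : Aut' p W} (h₁ : g₁ ∈ G) (h₂ : g₂ ∈ G)
    (hl : cjL g₁ l = cjL g₂ l) : cj g₁ Q = cj g₂ Q := by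
  let U : Subgroup (Aut' p W) := (uni (cjL g₁ l) (cjL g₁ l) le_rfl) ⊓ G
  have hU : IsPGroup p U := (isP_uni _ _ _).to_le inf_le_left
  have hm : ∀ g ∈ G, cjL g l = cjL g₁ l → cj g Q ≤ U := by
    intro g hg he x hx
    refine ⟨⟨fun w => ?_, fun w _ => ?_, fun w hw => ?_⟩, ?_⟩
    · rw [← he]; exact S.comm_cj hx w
    · rw [← he]; exact S.comm_cj hx w
    · rw [← he] at hw; exact S.fix_line hx hw
    · exact cj_le hg S.hQG hx
  exact S.eq_of_common inf_le_right hU h₁ h₂ (hm _ h₁ rfl) (hm _ h₂ hl.symm)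

/-- The stabilizer used in the Sylow argument. -/
def stabC (m : AddSubgroup W) (c : W) : Subgroup (Aut' p W) where
  carrier := {g | (∀ w ∈ m, g w = w) ∧ g c - c ∈ m}
  one_mem' := ⟨fun _ _ => rfl, by simp⟩
  mul_mem' := by
    rintro x y ⟨h1, h2⟩ ⟨k1, k2⟩
    refine ⟨fun w hw => ?_, ?_⟩
    · simp only [mul_apply']
      rw [k1 w hw, h1 w hw]
    · have e : (x * y) c - c = (x (y c) - y c) + (y c - c) := by simp
      have e2 : x (y c) - y c = x c - c := by
        have : y c = c + (y c - c) := by abel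
        rw [this, map_add, h1 _ k2]
        abel
      rw [e, e2]
      exact m.add_mem h2 k2
  inv_mem' := by
    rintro x ⟨h1, h2⟩
    have hB : ∀ w ∈ m, x⁻¹ w = w := by
      intro w hw
      have : x⁻¹ (x w) = w := inv_apply_self' _ _
      rwa [h1 w hw] at this
    refine ⟨hB, ?_⟩
    have e : x⁻¹ c = c - (x c - c) := by
      have hx : x (c - (x c - c)) = c := by
        rw [map_sub, h1 _ h2]
        abel
      have : x⁻¹ (x (c - (x c - c))) = c - (x c - c) := inv_apply_self' _ _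
      rw [hx] at this
      exact this
    rw [e]
    have : c - (x c - c) - c = -(x c - c) := by abel
    rw [this]
    exact m.neg_mem h2

theorem mem_stabC {m : AddSubgroup W} {c : W} {g : Aut' p W} :
    g ∈ stabC m c ↔ (∀ w ∈ m, g w = w) ∧ g c - c ∈ m := Iff.rfl

/-- The key step. -/
theorem Sys.key (S : Sys G T Q l) {g₁ g₂ : Aut' p W} (h₁ : g₁ ∈ G) (h₂ : g₂ ∈ G) {v : W} (hv0 : v ≠ 0)
    (hv₁ : v ∈ cjL g₁ l) (hv₂ : v ∈ cjL g₂ l) {c : W}
    (hc : ∀ x ∈ cj g₂ Q, x c - c ∈ cjL g₁ l ⊓ cjL g₂ l) :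
    ∀ x ∈ cj g₁ Q, x c - c ∈ cjL g₁ l ⊓ cjL g₂ l := by
  classical
  set m := cjL g₁ l ⊓ cjL g₂ l with hm
  have hvm : v ∈ m := ⟨hv₁, hv₂⟩
  -- a nontrivial element of the first conjugate stabilizing `c` modulo `m`
  obtain ⟨z, hz, hz1, hzc⟩ : ∃ z ∈ cj g₁ Q, z ≠ 1 ∧ z c - c ∈ m := by
    let f : cj g₁ Q → cjL g₁ l := fun x => ⟨x.1 c - c, S.comm_cj x.2 c⟩
    by_cases hf : Function.Injective f
    · have hb : Function.Bijective f :=
        (Nat.bijective_iff_injective_and_card f).2 ⟨hf, S.card_eq g₁⟩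
      obtain ⟨z, hz⟩ := hb.2 ⟨v, hv₁⟩
      have hzv : z.1 c - c = v := congrArg Subtype.val hz
      refine ⟨z.1, z.2, ?_, ?_⟩
      · intro h1
        rw [h1] at hzv
        apply hv0
        rw [← hzv]
        simp
      · rw [hzv]; exact hvm
    · simp only [Function.Injective, not_forall] at hf
      obtain ⟨x, y, hxy, hne⟩ := hf
      have e : x.1 c = y.1 c := by
        have := congrArg Subtype.val hxy
        simpa [f] using this
      refine ⟨x.1⁻¹ * y.1, (cj g₁ Q).mul_mem ((cj g₁ Q).inv_mem x.2) y.2, ?_, ?_⟩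
      · intro h1
        apply hne
        apply Subtype.ext
        have := inv_mul_eq_one.1 h1
        exact this
      · have : (x.1⁻¹ * y.1) c = c := by
          rw [mul_apply', ← e, inv_apply_self']
        rw [this, sub_self]
        exact m.zero_mem
  -- the stabilizer
  let St : Subgroup (Aut' p W) := stabC m c ⊓ G
  have hQ2St : cj g₂ Q ≤ St := by
    intro x hx
    refine ⟨⟨fun w hw => S.fix_line hx hw.2, hc x hx⟩, cj_le h₂ S.hQG hx⟩
  have hzSt : z ∈ St := ⟨⟨fun w hw => S.fix_line hz hw.1, hzc⟩, cj_le h₁ S.hQG hz⟩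
  -- Sylow subgroups of the stabilizer
  have hP2 : IsPGroup p ((cj g₂ Q).subgroupOf St) :=
    (isP_cj S.isPQ).comap_of_injective (Subgroup.subtype St) St.subtype_injective
  have hzp : IsPGroup p (Subgroup.zpowers (⟨z, hzSt⟩ : St)) := by
    obtain ⟨k, hk⟩ := (isP_cj S.isPQ) (⟨z, hz⟩ : cj g₁ Q)
    refine isP_zpowers (k := k) ?_
    apply Subtype.ext
    have := congrArg Subtype.val hk
    simpa using this
  obtain ⟨P₁, hP₁⟩ := hP2.exists_le_sylow
  obtain ⟨P₂, hP₂⟩ := hzp.exists_le_sylow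
  obtain ⟨h, hh⟩ := MulAction.exists_smul_eq St P₁ P₂
  let P : Subgroup (Aut' p W) := (P₂ : Subgroup St).map St.subtype
  have hPSt : P ≤ St := by
    rintro _ ⟨a, _, rfl⟩
    exact a.2
  have hPp : IsPGroup p P := P₂.isPGroup'.map St.subtype
  obtain ⟨y, hy, hyT⟩ := S.hconj P (hPSt.trans inf_le_right) hPp
  have hzP : z ∈ P := ⟨⟨z, hzSt⟩, hP₂ (Subgroup.mem_zpowers _), rfl⟩
  have hhG : (h : Aut' p W) * g₂ ∈ G := G.mul_mem h.2.2 h₂
  have hcjP : cj ((h : Aut' p W) * g₂) Q ≤ P := by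
    intro x hx
    rw [cj_mul, mem_cj] at hx
    have hx0 : (⟨(h : Aut' p W)⁻¹ * x * h, hQ2St hx⟩ : St) ∈ (P₁ : Subgroup St) :=
      hP₁ (by simpa [Subgroup.mem_subgroupOf] using hx)
    have hx1 : h * (⟨(h : Aut' p W)⁻¹ * x * h, hQ2St hx⟩ : St) * h⁻¹ ∈ (P₂ : Subgroup St) := by
      rw [← hh, Sylow.smul_def, Sylow.pointwise_smul_def]
      exact Subgroup.smul_mem_pointwise_smul _ (MulAut.conj h) _ hx0
    refine ⟨_, hx1, ?_⟩
    simp only [Subgroup.coe_subtype, Subgroup.coe_mul, InvMemClass.coe_inv]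
    group
  have heq : cj ((h : Aut' p W) * g₂) Q = cj y Q := by
    apply Subgroup.eq_of_le_of_card_ge
    · intro x hx
      exact S.mem_of_conj hy hhG (hyT x (hcjP hx)) hx
    · rw [card_cj, card_cj]
  have hz2 : z ∈ cj ((h : Aut' p W) * g₂) Q := by
    rw [heq]
    exact S.mem_of_conj hy h₁ (hyT z hzP) hz
  have hline : cjL g₁ l = cjL ((h : Aut' p W) * g₂) l := by
    ext w
    rw [← S.fix_cj hz hz1 w, S.fix_cj hz2 hz1 w]
  have hQeq := S.eq_of_line h₁ hhG hline
  intro x hx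
  rw [hQeq, cj_mul] at hx
  have : x ∈ St := cj_le h.2 hQ2St hx
  exact this.1.2

/-- The module of vectors fixed modulo `m`. -/
def fixMod (Q₁ : Subgroup (Aut' p W)) (m : AddSubgroup W) : AddSubgroup W where
  carrier := {c | ∀ x ∈ Q₁, x c - c ∈ m}
  zero_mem' := by
    intro x _
    simp
  add_mem' := by
    intro a b ha hb x hx
    have e : x (a + b) - (a + b) = (x a - a) + (x b - b) := by
      rw [map_add]; abel
    rw [e]
    exact m.add_mem (ha x hx) (hb x hx)
  neg_mem' := by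
    intro a ha x hx
    have e : x (-a) - (-a) = -(x a - a) := by
      rw [map_neg]; abel
    rw [e]
    exact m.neg_mem (ha x hx)

theorem mem_fixMod {Q₁ : Subgroup (Aut' p W)} {m : AddSubgroup W} {c : W} :
    c ∈ fixMod Q₁ m ↔ ∀ x ∈ Q₁, x c - c ∈ m := Iff.rfl

/-- **Conjugates of `Q` whose fixed spaces meet non-trivially coincide.** -/
theorem Sys.eq_of_meet (S : Sys G T Q l) {g₁ g₂ : Aut' p W} (h₁ : g₁ ∈ G) (h₂ : g₂ ∈ G) {v : W}
    (hv0 : v ≠ 0) (hv₁ : v ∈ cjL g₁ l) (hv₂ : v ∈ cjL g₂ l) : cj g₁ Q = cj g₂ Q := by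
  set m := cjL g₁ l ⊓ cjL g₂ l with hm
  have hsw : fixMod (cj g₂ Q) m ≤ fixMod (cj g₁ Q) m := fun c hc => S.key h₁ h₂ hv0 hv₁ hv₂ hc
  have hsw' : fixMod (cj g₁ Q) m ≤ fixMod (cj g₂ Q) m := by
    intro c hc
    have h := S.key h₂ h₁ hv0 hv₂ hv₁ (c := c) (by
      intro x hx
      rw [inf_comm]
      exact hc x hx)
    intro x hx
    have := h x hx
    rwa [inf_comm] at this
  have hmA : m ≤ fixMod (cj g₁ Q) m := by
    intro c hc x hx
    rw [S.fix_line hx hc.1, sub_self]
    exact m.zero_mem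
  let U : Subgroup (Aut' p W) := uni (fixMod (cj g₁ Q) m) m hmA ⊓ G
  have hUp : IsPGroup p U := (isP_uni _ _ _).to_le inf_le_left
  have l1 : cjL g₁ l ≤ fixMod (cj g₁ Q) m := by
    intro c hc x hx
    rw [S.fix_line hx hc, sub_self]
    exact m.zero_mem
  have l2 : cjL g₂ l ≤ fixMod (cj g₁ Q) m := by
    intro c hc
    apply hsw
    intro x hx
    rw [S.fix_line hx hc, sub_self]
    exact m.zero_mem
  have h1U : cj g₁ Q ≤ U := by
    intro x hx
    refine ⟨⟨fun w => l1 (S.comm_cj hx w), fun w hw => hw x hx, fun w hw => S.fix_line hx hw.1⟩,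
      cj_le h₁ S.hQG hx⟩
  have h2U : cj g₂ Q ≤ U := by
    intro x hx
    refine ⟨⟨fun w => l2 (S.comm_cj hx w), fun w hw => hsw' hw x hx, fun w hw => S.fix_line hx hw.2⟩,
      cj_le h₂ S.hQG hx⟩
  exact S.eq_of_common inf_le_right hUp h₁ h₂ h1U h2U

end sys

end Cfsg.Agent.Lib.NatRoot
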