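import Mathlib
import Cfsg.Agent.Lib.NatRoot.Abs
import Cfsg.Agent.Lib.SL2NaturalModule

/-!
# The natural module of `SL₂` over a finite field, inside the automorphisms over the prime field
-/

set_option autoImplicit false
set_option linter.unusedSectionVars false
set_option linter.unusedVariables false

namespace Cfsg.Agent.Lib.NatRoot

open Cfsg.Agent.Lib.SL2NaturalModule Matrix

variable {p : ℕ} [hp : Fact p.Prime] {F : Type*} [Field F] [Algebra (ZMod p) F]

local notation "SL₂" => Matrix.SpecialLinearGroup (Fin 2) F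

variable (p) in
/-- the action on column vectors -/
def act : SL₂ →* Aut' p (Fin 2 → F) where
  toFun m :=
    { toFun := fun w => (ent m).mulVec w
      map_add' := fun a b => Matrix.mulVec_add _ _ _
      map_smul' := fun c w => Matrix.mulVec_smul _ _ _
      invFun := fun w => (ent m⁻¹).mulVec w
      left_inv := fun w => by
        show (ent m⁻¹).mulVec ((ent m).mulVec w) = w
        rw [Matrix.mulVec_mulVec, ← ent_mul, inv_mul_cancel, ent_one, Matrix.one_mulVec]
      right_inv := fun w => by
        show (ent m).mulVec ((ent m⁻¹).mulVec w) = w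
        rw [Matrix.mulVec_mulVec, ← ent_mul, mul_inv_cancel, ent_one, Matrix.one_mulVec] }
  map_one' := by
    ext w
    show (ent (1 : SL₂)).mulVec w _ = w _
    rw [ent_one, Matrix.one_mulVec]
  map_mul' a b := by
    ext w
    show (ent (a * b)).mulVec w _ = (ent a).mulVec ((ent b).mulVec w) _
    rw [Matrix.mulVec_mulVec, ent_mul]

theorem act_apply (m : SL₂) (w : Fin 2 → F) : act p m w = (ent m).mulVec w := rfl

theorem act_0 (m : SL₂) (w : Fin 2 → F) : act p m w 0 = ent m 0 0 * w 0 + ent m 0 1 * w 1 := by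
  simp [act_apply, Matrix.mulVec, dotProduct, Fin.sum_univ_two]

theorem act_1 (m : SL₂) (w : Fin 2 → F) : act p m w 1 = ent m 1 0 * w 0 + ent m 1 1 * w 1 := by
  simp [act_apply, Matrix.mulVec, dotProduct, Fin.sum_univ_two]

theorem ext2 {a b : Fin 2 → F} (h0 : a 0 = b 0) (h1 : a 1 = b 1) : a = b := by
  ext i
  fin_cases i
  · exact h0
  · exact h1

theorem act_smul (m : SL₂) (c : F) (w : Fin 2 → F) : act p m (c • w) = c • act p m w := by
  apply ext2
  · simp only [act_0, Pi.smul_apply, smul_eq_mul]; ring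
  · simp only [act_1, Pi.smul_apply, smul_eq_mul]; ring

theorem up_0 (c : F) (w : Fin 2 → F) : act p (up c) w 0 = w 0 + c * w 1 := by
  simp [act_0, ent_up]

theorem up_1 (c : F) (w : Fin 2 → F) : act p (up c) w 1 = w 1 := by
  simp [act_1, ent_up]

theorem lo_0 (c : F) (w : Fin 2 → F) : act p (lo c) w 0 = w 0 := by
  simp [act_0, ent_lo]

theorem lo_1 (c : F) (w : Fin 2 → F) : act p (lo c) w 1 = w 1 + c * w 0 := by
  simp [act_1, ent_lo]; ring

theorem wey_0 (w : Fin 2 → F) : act p (wey : SL₂) w 0 = w 1 := by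
  simp [act_0, ent_wey]

theorem wey_1 (w : Fin 2 → F) : act p (wey : SL₂) w 1 = - w 0 := by
  simp [act_1, ent_wey]

theorem act_up_add (c d : F) : act p (up (c + d)) = act p (up c) * act p (up d) := by
  rw [← map_mul, up_add]

theorem act_up_zero : act p (up (0 : F)) = 1 := by
  rw [up_zero, map_one]

theorem act_up_inv (c : F) : (act p (up c))⁻¹ = act p (up (-c)) := by
  rw [inv_eq_iff_mul_eq_one, ← act_up_add, add_neg_cancel, act_up_zero]

variable (p F) in
/-- the root subgroup -/
def QQ : Subgroup (Aut' p (Fin 2 → F)) where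
  carrier := Set.range fun c : F => act p (up c)
  one_mem' := ⟨0, act_up_zero⟩
  mul_mem' := by
    rintro _ _ ⟨a, rfl⟩ ⟨b, rfl⟩
    exact ⟨a + b, act_up_add a b⟩
  inv_mem' := by
    rintro _ ⟨a, rfl⟩
    exact ⟨-a, (act_up_inv a).symm⟩

theorem mem_QQ {x : Aut' p (Fin 2 → F)} : x ∈ QQ p F ↔ ∃ c : F, x = act p (up c) := by
  constructor
  · rintro ⟨c, rfl⟩
    exact ⟨c, rfl⟩
  · rintro ⟨c, rfl⟩
    exact ⟨c, rfl⟩

theorem up_mem (c : F) : act p (up c) ∈ QQ p F := mem_QQ.2 ⟨c, rfl⟩

variable (F) in
/-- the fixed line -/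
def ll : AddSubgroup (Fin 2 → F) where
  carrier := {w | w 1 = 0}
  zero_mem' := rfl
  add_mem' := by
    intro a b ha hb
    have ha' : a 1 = 0 := ha
    have hb' : b 1 = 0 := hb
    show (a + b) 1 = 0
    simp [ha', hb']
  neg_mem' := by
    intro a ha
    have ha' : a 1 = 0 := ha
    show (-a) 1 = 0
    simp [ha']

theorem mem_ll {w : Fin 2 → F} : w ∈ ll F ↔ w 1 = 0 := Iff.rfl

theorem up_inj {c d : F} (h : act p (up c) = act p (up d)) : c = d := by
  have := congrArg (fun g : Aut' p (Fin 2 → F) => g ![0, 1] 0) h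
  simpa [up_0] using this

theorem QQ_fix {a : Aut' p (Fin 2 → F)} (ha : a ∈ QQ p F) (h1 : a ≠ 1) (w : Fin 2 → F) :
    a w = w ↔ w ∈ ll F := by
  obtain ⟨c, rfl⟩ := mem_QQ.1 ha
  have hc : c ≠ 0 := by
    rintro rfl
    exact h1 act_up_zero
  rw [mem_ll]
  constructor
  · intro h
    have := congrFun h 0
    rw [up_0] at this
    have h2 : c * w 1 = 0 := by simpa using this
    exact (mul_eq_zero.1 h2).resolve_left hc
  · intro h
    apply ext2
    · rw [up_0, h]; simp
    · rw [up_1]

theorem QQ_comm {a : Aut' p (Fin 2 → F)} (ha : a ∈ QQ p F) (w : Fin 2 → F) : a w - w ∈ ll F := by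
  obtain ⟨c, rfl⟩ := mem_QQ.1 ha
  rw [mem_ll]
  simp [up_1]

theorem card_QQ : Nat.card (QQ p F) = Nat.card F := by
  refine (Nat.card_congr (Equiv.ofBijective (fun c : F => (⟨act p (up c), up_mem c⟩ : QQ p F)) ⟨?_, ?_⟩)).symm
  · intro a b h
    exact up_inj (congrArg Subtype.val h)
  · rintro ⟨x, hx⟩
    obtain ⟨c, rfl⟩ := mem_QQ.1 hx
    exact ⟨c, rfl⟩

theorem card_ll : Nat.card (ll F) = Nat.card F := by
  refine (Nat.card_congr (Equiv.ofBijective (fun c : F => (⟨![c, 0], rfl⟩ : ll F)) ⟨?_, ?_⟩)).symm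
  · intro a b h
    have := congrFun (congrArg Subtype.val h) 0
    simpa using this
  · rintro ⟨x, hx⟩
    refine ⟨x 0, Subtype.ext ?_⟩
    apply ext2
    · rfl
    · exact (mem_ll.1 hx).symm

theorem card_QQ_ll : Nat.card (QQ p F) = Nat.card (ll F) := by rw [card_QQ, card_ll]

/-! ### The commutant and semilinearity -/

/-- Scalar multiplications are the only additive maps commuting with the group. -/
theorem commutant (φ : (Fin 2 → F) →+ (Fin 2 → F)) (h : ∀ (m : SL₂) w, φ (act p m w) = act p m (φ w)) :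
    ∃ c : F, ∀ w, φ w = c • w := by
  -- first coordinate
  have e1 : ∀ x : F, φ ![x, 0] 1 = 0 := by
    intro x
    have hf : act p (up (1 : F)) ![x, 0] = ![x, 0] := by
      apply ext2
      · rw [up_0]; simp
      · rw [up_1]
    have := h (up 1) ![x, 0]
    rw [hf] at this
    have h0 := congrFun this 0
    rw [up_0] at h0
    simpa using h0
  let f : F → F := fun x => φ ![x, 0] 0
  have he : ∀ x : F, φ ![x, 0] = ![f x, 0] := fun x => ext2 rfl (e1 x)
  have hadd : ∀ x y : F, f (x + y) = f x + f y := by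
    intro x y
    have : (![x + y, 0] : Fin 2 → F) = ![x, 0] + ![y, 0] := by
      apply ext2 <;> simp
    show φ ![x + y, 0] 0 = φ ![x, 0] 0 + φ ![y, 0] 0
    rw [this, map_add]
    rfl
  have hneg : ∀ x : F, f (-x) = - f x := by
    intro x
    have h0 : f 0 = 0 := by
      have := hadd 0 0
      simpa using this
    have := hadd x (-x)
    rw [add_neg_cancel, h0] at this
    exact eq_neg_of_add_eq_zero_right this.symm
  have he' : ∀ x : F, φ ![0, x] = ![0, f x] := by
    intro x
    have hw : act p (wey : SL₂) ![-x, 0] = ![0, x] := by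
      apply ext2
      · rw [wey_0]; simp
      · rw [wey_1]; simp
    have := h wey ![-x, 0]
    rw [hw, he] at this
    rw [this]
    apply ext2
    · rw [wey_0]; simp
    · rw [wey_1]; simp [hneg]
  have hmul : ∀ c x : F, f (c * x) = c * f x := by
    intro c x
    have hu : act p (up c) ![0, x] = ![c * x, 0] + ![0, x] := by
      apply ext2
      · rw [up_0]; simp
      · rw [up_1]; simp
    have := h (up c) ![0, x]
    rw [hu, map_add, he, he'] at this
    have h0 := congrFun this 0
    rw [up_0] at h0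
    simpa using h0
  refine ⟨f 1, fun w => ?_⟩
  have hw : w = ![w 0, 0] + ![0, w 1] := by
    apply ext2 <;> simp
  rw [hw, map_add, he, he']
  apply ext2
  · simp only [Pi.add_apply, Pi.smul_apply, smul_eq_mul]
    have := hmul (w 0) 1
    rw [mul_one] at this
    simp [this, mul_comm]
  · simp only [Pi.add_apply, Pi.smul_apply, smul_eq_mul]
    have := hmul (w 1) 1
    rw [mul_one] at this
    simp [this, mul_comm]

/-- Semilinearity. -/
def IsSemi (t : Aut' p (Fin 2 → F)) (σ : F ≃+* F) : Prop := ∀ (c : F) w, t (c • w) = σ c • t w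

theorem smul_cancel {a b : F} {u : Fin 2 → F} (hu : u ≠ 0) (h : a • u = b • u) : a = b := by
  by_contra hne
  apply hu
  have : (a - b) • u = 0 := by rw [sub_smul, h, sub_self]
  exact (smul_eq_zero.1 this).resolve_left (sub_ne_zero.2 hne)

theorem e1_ne : (![1, 0] : Fin 2 → F) ≠ 0 := by
  intro h
  have := congrFun h 0
  simp at this

theorem IsSemi.unique {t : Aut' p (Fin 2 → F)} {σ τ : F ≃+* F} (h1 : IsSemi t σ) (h2 : IsSemi t τ) :
    σ = τ := by
  ext c
  have hu : t ![1, 0] ≠ 0 := by
    intro h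
    apply e1_ne (F := F)
    apply t.injective
    rw [h, map_zero]
  apply smul_cancel hu
  rw [← h1, h2]

theorem IsSemi.mul {x y : Aut' p (Fin 2 → F)} {σ τ : F ≃+* F} (h1 : IsSemi x σ) (h2 : IsSemi y τ) :
    IsSemi (x * y) (σ * τ) := by
  intro c w
  simp only [mul_apply']
  rw [h2, h1]
  rfl

theorem IsSemi.one : IsSemi (1 : Aut' p (Fin 2 → F)) 1 := fun _ _ => rfl

theorem isSemi_act (m : SL₂) : IsSemi (act p m) 1 := fun c w => act_smul m c w

variable [Finite F]

/-- An automorphism normalizing the group is semilinear. -/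
theorem exists_semi {t : Aut' p (Fin 2 → F)} (hn : ∀ m : SL₂, ∃ m' : SL₂, t⁻¹ * act p m * t = act p m') :
    ∃ σ : F ≃+* F, IsSemi t σ := by
  have hc : ∀ c : F, ∃ s : F, ∀ w, t (c • w) = s • t w := by
    intro c
    let φ : (Fin 2 → F) →+ (Fin 2 → F) :=
      { toFun := fun w => t (c • t⁻¹ w)
        map_zero' := by simp
        map_add' := fun a b => by simp [smul_add] }
    obtain ⟨s, hs⟩ := commutant (p := p) φ (by
      intro m w
      obtain ⟨m', hm'⟩ := hn m
      have h1 : t⁻¹ (act p m w) = act p m' (t⁻¹ w) := by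
        have := congrArg (fun g : Aut' p (Fin 2 → F) => g (t⁻¹ w)) hm'
        simpa using this
      have h2 : ∀ u, t (act p m' u) = act p m (t u) := by
        intro u
        have := congrArg (fun g : Aut' p (Fin 2 → F) => g u) hm'
        simp only [mul_apply'] at this
        rw [← this, apply_inv_self']
      show t (c • t⁻¹ (act p m w)) = act p m (t (c • t⁻¹ w))
      rw [h1, ← act_smul, h2])
    refine ⟨s, fun w => ?_⟩
    have := hs (t w)
    simpa [φ] using this
  choose s hs using hc
  have hu : t ![1, 0] ≠ 0 := by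
    intro h
    apply e1_ne (F := F)
    apply t.injective
    rw [h, map_zero]
  let r : F →+* F :=
    { toFun := s
      map_one' := by
        apply smul_cancel hu
        rw [← hs, one_smul, one_smul]
      map_mul' := by
        intro a b
        apply smul_cancel hu
        rw [← hs, mul_smul, hs, hs, mul_smul]
      map_zero' := by
        apply smul_cancel hu
        rw [← hs, zero_smul, zero_smul, map_zero]
      map_add' := by
        intro a b
        apply smul_cancel hu
        rw [← hs, add_smul, map_add, hs, hs, add_smul] }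
  have hb : Function.Bijective r :=
    ⟨r.injective, Finite.surjective_of_injective r.injective⟩
  exact ⟨RingEquiv.ofBijective r hb, fun c w => hs c w⟩

variable (p) in
include hp in
/-- Involutions of a finite field are unique. -/
theorem inv_unique {σ τ : F ≃+* F} (h1 : σ * σ = 1) (h2 : τ * τ = 1) (h3 : σ ≠ 1) (h4 : τ ≠ 1) :
    σ = τ := by
  classical
  haveI : Fintype F := Fintype.ofFinite F
  haveI hc : IsCyclic (F ≃ₐ[ZMod p] F) := inferInstance
  haveI : Finite (F ≃ₐ[ZMod p] F) := Finite.of_injective (fun f : F ≃ₐ[ZMod p] F => (f : F → F))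
    (fun a b h => by ext x; exact congrFun h x)
  haveI : Fintype (F ≃ₐ[ZMod p] F) := Fintype.ofFinite _
  let up' : (F ≃+* F) → (F ≃ₐ[ZMod p] F) := fun f => AlgEquiv.ofRingEquiv (f := f) (fun x => by
    have := RingHom.ext_zmod (f.toRingHom.comp (algebraMap (ZMod p) F)) (algebraMap (ZMod p) F)
    exact congrArg (fun g : ZMod p →+* F => g x) this)
  have hup : ∀ f x, up' f x = f x := fun f x => rfl
  have hinj : Function.Injective up' := by
    intro a b h
    ext x
    rw [← hup, ← hup, h]
  have hs : ∀ f : F ≃+* F, f * f = 1 → up' f ^ 2 = 1 := by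
    intro f hf
    ext x
    rw [pow_two, AlgEquiv.mul_apply, hup, hup]
    have := congrArg (fun g : F ≃+* F => g x) hf
    simpa using this
  have hne : ∀ f : F ≃+* F, f ≠ 1 → up' f ≠ 1 := by
    intro f hf h
    apply hf
    ext x
    have := congrArg (fun g : F ≃ₐ[ZMod p] F => g x) h
    simpa [hup] using this
  by_contra hst
  have hle := IsCyclic.card_pow_eq_one_le (α := F ≃ₐ[ZMod p] F) (n := 2) (by norm_num)
  have hsub : ({1, up' σ, up' τ} : Finset (F ≃ₐ[ZMod p] F)) ⊆
      Finset.univ.filter (fun a : F ≃ₐ[ZMod p] F => a ^ 2 = 1) := by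
    intro a ha
    simp only [Finset.mem_insert, Finset.mem_singleton] at ha
    simp only [Finset.mem_filter, Finset.mem_univ, true_and]
    rcases ha with rfl | rfl | rfl
    · simp
    · exact hs _ h1
    · exact hs _ h2
  have hc3 : ({1, up' σ, up' τ} : Finset (F ≃ₐ[ZMod p] F)).card = 3 := by
    rw [Finset.card_eq_three]
    exact ⟨1, up' σ, up' τ, (hne σ h3).symm, (hne τ h4).symm, fun h => hst (hinj h), rfl⟩
  have := Finset.card_le_card hsub
  omega

end Cfsg.Agent.Lib.NatRoot
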