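import Mathlib
import Cfsg.Agent.Lib.NatRoot.Basic

/-!
# Sylow data for the natural module
-/

set_option autoImplicit false
set_option linter.unusedSectionVars false
set_option linter.unusedVariables false

namespace Cfsg.Agent.Lib.NatRoot

open Cfsg.Agent.Lib.SL2NaturalModule Matrix

variable {p : ℕ} [hp : Fact p.Prime] {F : Type*} [Field F] [Algebra (ZMod p) F] [Finite F]

local notation "SL₂" => Matrix.SpecialLinearGroup (Fin 2) F
local notation "A₂" => Aut' p (Fin 2 → F)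

theorem fix_cj {g x : A₂} (hx : x ∈ cj g (QQ p F)) (hx1 : x ≠ 1) (w : Fin 2 → F) :
    x w = w ↔ w ∈ cjL g (ll F) := by
  have ha := mem_cj.1 hx
  have hne : g⁻¹ * x * g ≠ 1 := by
    intro h
    apply hx1
    have : x = g * (g⁻¹ * x * g) * g⁻¹ := by group
    rw [this, h]
    group
  rw [mem_cjL, ← QQ_fix ha hne]
  simp only [mul_apply']
  constructor
  · intro h
    rw [apply_inv_self', h]
  · intro h
    rw [apply_inv_self'] at h
    have := congrArg g h
    simpa using this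

theorem fix_line {g x : A₂} (hx : x ∈ cj g (QQ p F)) {w : Fin 2 → F}
    (hw : w ∈ cjL g (ll F)) : x w = w := by
  by_cases hx1 : x = 1
  · rw [hx1]; rfl
  · exact (fix_cj hx hx1 w).2 hw

theorem comm_cj {g x : A₂} (hx : x ∈ cj g (QQ p F)) (w : Fin 2 → F) :
    x w - w ∈ cjL g (ll F) := by
  have ha := mem_cj.1 hx
  rw [mem_cjL, map_sub]
  have := QQ_comm ha (g⁻¹ w)
  simpa using this

variable (p F) in
/-- The group and Sylow data. -/
structure TSys (GG TT : Subgroup A₂) : Prop where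
  hLG : ∀ m : SL₂, act p m ∈ GG
  hTG : TT ≤ GG
  hTp : IsPGroup p TT
  hTN : ∀ t ∈ TT, ∀ m : SL₂, ∃ m' : SL₂, t * act p m * t⁻¹ = act p m'
  hUT : ∀ c : F, act p (up c) ∈ TT
  hconj : ∀ P : Subgroup A₂, P ≤ GG → IsPGroup p P → ∃ y ∈ GG, ∀ x ∈ P, y⁻¹ * x * y ∈ TT

variable {GG TT : Subgroup (Aut' p (Fin 2 → F))}

theorem TSys.semi (S : TSys p F GG TT) {t : A₂} (ht : t ∈ TT) : ∃ σ : F ≃+* F, IsSemi t σ := by
  apply exists_semi
  intro m
  obtain ⟨m', hm'⟩ := S.hTN _ (TT.inv_mem ht) m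
  refine ⟨m', ?_⟩
  simpa using hm'

/-- A fixed vector of the Sylow subgroup. -/
theorem TSys.line (S : TSys p F GG TT) : ∃ x₀ : F, x₀ ≠ 0 ∧ ∀ t ∈ TT, t ![x₀, 0] = ![x₀, 0] := by
  obtain ⟨v, hv, hfix⟩ := exists_fixed_ne_zero (p := p) (P := TT) (Y := Fin 2 → F) S.hTp
    (fun y => ZModModule.char_nsmul_eq_zero p y) (fun g => smul_zero g)
  have hfix' : ∀ t ∈ TT, t v = v := fun t ht => hfix ⟨t, ht⟩
  have h1 : v 1 = 0 := by
    have := congrFun (hfix' _ (S.hUT 1)) 0
    rw [up_0] at this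
    simpa using this
  have h0 : v 0 ≠ 0 := by
    intro h0
    apply hv
    apply ext2
    · simpa using h0
    · simpa using h1
  have hvv : ![v 0, 0] = v := ext2 rfl h1.symm
  exact ⟨v 0, h0, by rwa [hvv]⟩

/-- Linear elements of the Sylow subgroup are in the root subgroup. -/
theorem TSys.mem_of_semi_one (S : TSys p F GG TT) {t : A₂} (ht : t ∈ TT) (hs : IsSemi t 1) :
    t ∈ QQ p F := by
  haveI : CharP F p := charP_of_injective_algebraMap (algebraMap (ZMod p) F).injective p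
  obtain ⟨x₀, hx₀, hfix⟩ := S.line
  have he1 : t ![1, 0] = ![1, 0] := by
    have e : (![1, 0] : Fin 2 → F) = x₀⁻¹ • ![x₀, 0] := by
      apply ext2
      · simp [hx₀]
      · simp
    rw [e, hs, hfix t ht]
    rfl
  set b := t ![0, 1] 0 with hb
  set β := t ![0, 1] 1 with hβ
  have hdec : ∀ w : Fin 2 → F, w = w 0 • ![1, 0] + w 1 • ![0, 1] := by
    intro w
    apply ext2 <;> simp
  have hc0 : ∀ w, t w 0 = w 0 + w 1 * b := by
    intro w
    conv_lhs => rw [hdec w]
    rw [map_add, hs, hs, he1]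
    simp [hb]
  have hc1 : ∀ w, t w 1 = w 1 * β := by
    intro w
    conv_lhs => rw [hdec w]
    rw [map_add, hs, hs, he1]
    simp [hβ]
  have hpow : ∀ n : ℕ, ∀ w, (t ^ n) w 1 = w 1 * β ^ n := by
    intro n
    induction n with
    | zero => intro w; simp
    | succ n ih =>
      intro w
      rw [pow_succ', mul_apply', hc1, ih, pow_succ]
      ring
  obtain ⟨k, hk⟩ := S.hTp ⟨t, ht⟩
  have hk' : t ^ p ^ k = 1 := by
    have := congrArg Subtype.val hk
    simpa using this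
  have hβ1 : β = 1 := by
    have h1 := hpow (p ^ k) ![0, 1]
    rw [hk'] at h1
    simp only [one_apply'] at h1
    have h2 : β ^ p ^ k = 1 := by simpa using h1.symm
    have h3 : (β - 1) ^ p ^ k = 0 := by
      rw [sub_pow_char_pow, h2, one_pow, sub_self]
    exact sub_eq_zero.1 (pow_eq_zero_iff (pow_ne_zero _ hp.out.ne_zero) |>.1 h3)
  refine mem_QQ.2 ⟨b, ?_⟩
  ext w i
  fin_cases i
  · show t w 0 = act p (up b) w 0
    rw [hc0, up_0]
    ring
  · show t w 1 = act p (up b) w 1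
    rw [hc1, up_1, hβ1, mul_one]

theorem TSys.semi_one_of_fix {t : A₂} {σ : F ≃+* F} (hs : IsSemi t σ)
    (hfix : ∀ w ∈ ll F, t w = w) : σ = 1 := by
  ext c
  have he : t ![1, 0] = ![1, 0] := hfix _ (by simp [mem_ll])
  have e : t (c • ![1, 0]) = c • ![1, 0] := hfix _ (by simp [mem_ll])
  rw [hs, he] at e
  exact smul_cancel e1_ne e

/-- The key lemma: conjugates of the root subgroup inside the Sylow subgroup. -/
theorem TSys.X (S : TSys p F GG TT) (h2 : (2 : F) = 0) {η : F} (hη0 : η ≠ 0) (hη1 : η ≠ 1) {y : A₂}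
    (hle : cj y (QQ p F) ≤ TT) : cj y (QQ p F) = QQ p F := by
  let q : F → A₂ := fun c => y * act p (up c) * y⁻¹
  have hq : ∀ c, q c ∈ cj y (QQ p F) := by
    intro c
    rw [mem_cj]
    have : y⁻¹ * q c * y = act p (up c) := by
      simp only [q]
      group
    rw [this]
    exact up_mem c
  have hqT : ∀ c, q c ∈ TT := fun c => hle (hq c)
  have hq_mul : ∀ c d, q (c + d) = q c * q d := by
    intro c d
    simp only [q]
    rw [act_up_add]
    group
  have hq0 : q 0 = 1 := by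
    simp only [q]
    rw [act_up_zero]
    group
  have hfx : ∀ c (w : Fin 2 → F), q c w = y (act p (up c) (y⁻¹ w)) := fun c w => rfl
  have hup1 : ∀ c : F, c ≠ 0 → act p (up c) ≠ 1 := by
    intro c hc h
    apply hc
    apply up_inj (p := p)
    rw [h, act_up_zero]
  by_cases hc : ∃ c : F, c ≠ 0 ∧ q c ∈ QQ p F
  · obtain ⟨c, hc0, hqc⟩ := hc
    have hqc1 : q c ≠ 1 := by
      intro h
      apply hup1 c hc0
      have : act p (up c) = y⁻¹ * q c * y := by
        simp only [q]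
        group
      rw [this, h]
      group
    have hall : ∀ a, ∀ w ∈ ll F, q a w = w := by
      intro a w hw
      have h1 : q c w = w := (QQ_fix hqc hqc1 w).2 hw
      rw [hfx] at h1
      have h2 : act p (up c) (y⁻¹ w) = y⁻¹ w := by
        calc act p (up c) (y⁻¹ w) = y⁻¹ (y (act p (up c) (y⁻¹ w))) := (inv_apply_self' _ _).symm
          _ = y⁻¹ w := by rw [h1]
      have h3 := (QQ_fix (up_mem c) (hup1 c hc0) _).1 h2
      rw [hfx]
      have h4 : act p (up a) (y⁻¹ w) = y⁻¹ w := by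
        apply ext2
        · rw [up_0, mem_ll.1 h3]; simp
        · rw [up_1]
      rw [h4]
      simp
    have hle' : cj y (QQ p F) ≤ QQ p F := by
      intro x hx
      obtain ⟨a, ha⟩ := mem_QQ.1 (mem_cj.1 hx)
      have hxa : x = q a := by
        simp only [q]
        rw [← ha]
        group
      rw [hxa]
      obtain ⟨σ, hσ⟩ := S.semi (hqT a)
      have := TSys.semi_one_of_fix hσ (hall a)
      rw [this] at hσ
      exact S.mem_of_semi_one (hqT a) hσ
    apply Subgroup.eq_of_le_of_card_ge hle'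
    rw [card_cj]
  · push Not at hc
    exfalso
    obtain ⟨σ₁, hσ₁⟩ := S.semi (hqT 1)
    obtain ⟨σ₂, hσ₂⟩ := S.semi (hqT η)
    have hne : ∀ c : F, c ≠ 0 → ∀ σ : F ≃+* F, IsSemi (q c) σ → σ ≠ 1 := by
      intro c hc0 σ hσ h
      rw [h] at hσ
      exact hc c hc0 (S.mem_of_semi_one (hqT c) hσ)
    have hinv : ∀ c : F, ∀ σ : F ≃+* F, IsSemi (q c) σ → σ * σ = 1 := by
      intro c σ hσ
      have h1 := hσ.mul hσ
      have h3 : q c * q c = 1 := by
        rw [← hq_mul, ← two_mul, h2, zero_mul, hq0]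
      rw [h3] at h1
      exact h1.unique IsSemi.one
    have heq := inv_unique p (hinv _ _ hσ₁) (hinv _ _ hσ₂) (hne 1 one_ne_zero _ hσ₁) (hne η hη0 _ hσ₂)
    have h1 := hσ₁.mul hσ₂
    rw [← heq, hinv _ _ hσ₁, ← hq_mul] at h1
    apply hc (1 + η) _ (S.mem_of_semi_one (hqT _) h1)
    intro h
    apply hη1
    have : η = -1 := by
      rw [eq_neg_iff_add_eq_zero, add_comm]
      exact h
    rw [this]
    have h3 : (1 : F) + 1 = 0 := by
      rw [one_add_one_eq_two]
      exact h2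
    exact neg_eq_of_add_eq_zero_left h3

/-- Conjugates of the root subgroup with the same fixed space coincide. -/
theorem TSys.eq_of_line (S : TSys p F GG TT) (h2 : (2 : F) = 0) {η : F} (hη0 : η ≠ 0) (hη1 : η ≠ 1)
    {g₁ g₂ : A₂} (h₁ : g₁ ∈ GG) (h₂ : g₂ ∈ GG) (hl : cjL g₁ (ll F) = cjL g₂ (ll F)) :
    cj g₁ (QQ p F) = cj g₂ (QQ p F) := by
  have hQG : QQ p F ≤ GG := by
    intro x hx
    obtain ⟨c, rfl⟩ := mem_QQ.1 hx
    exact S.hLG _
  let U : Subgroup A₂ := (uni (cjL g₁ (ll F)) (cjL g₁ (ll F)) le_rfl) ⊓ GG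
  have hU : IsPGroup p U := (isP_uni _ _ _).to_le inf_le_left
  have hm : ∀ g ∈ GG, cjL g (ll F) = cjL g₁ (ll F) → cj g (QQ p F) ≤ U := by
    intro g hg he x hx
    refine ⟨⟨fun w => ?_, fun w _ => ?_, fun w hw => ?_⟩, ?_⟩
    · rw [← he]; exact comm_cj hx w
    · rw [← he]; exact comm_cj hx w
    · rw [← he] at hw; exact fix_line hx hw
    · exact cj_le hg hQG hx
  obtain ⟨y, hy, hyT⟩ := S.hconj U inf_le_right hU
  have key : ∀ g ∈ GG, cjL g (ll F) = cjL g₁ (ll F) → cj g (QQ p F) = cj y (QQ p F) := by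
    intro g hg he
    have h3 : cj (y⁻¹ * g) (QQ p F) = QQ p F := by
      apply S.X h2 hη0 hη1
      intro x hx
      rw [cj_mul] at hx
      have h4 := mem_cj.1 hx
      rw [inv_inv] at h4
      have h5 := hyT _ (hm g hg he h4)
      have e : y⁻¹ * (y * x * y⁻¹) * y = x := by group
      rwa [e] at h5
    have h4 : g = y * (y⁻¹ * g) := by group
    rw [h4, cj_mul, h3]
  rw [key g₁ h₁ rfl, key g₂ h₂ hl.symm]

/-- **The strongly closed branch.** -/
theorem TSys.normal_of_SC (S : TSys p F GG TT)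
    (hSC : ∀ t ∈ TT, ∀ g ∈ GG, ∀ a ∈ QQ p F, g * a * g⁻¹ = t → t ∈ QQ p F) :
    ∀ g ∈ GG, ∀ m : SL₂, ∃ m' : SL₂, g * act p m * g⁻¹ = act p m' := by
  have hQG : QQ p F ≤ GG := by
    intro x hx
    obtain ⟨c, rfl⟩ := mem_QQ.1 hx
    exact S.hLG _
  have hQT : QQ p F ≤ TT := by
    intro x hx
    obtain ⟨c, rfl⟩ := mem_QQ.1 hx
    exact S.hUT _
  let SS : Sys GG TT (QQ p F) (ll F) :=
    { hQG := hQG
      hQT := hQT
      hTp := S.hTp
      hconj := S.hconj
      hSC := hSC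
      hfix := fun a ha h1 w => QQ_fix ha h1 w
      hcomm := fun a ha w => QQ_comm ha w
      hcard := card_QQ_ll }
  have hA : ∀ g ∈ GG, ∀ c : F, ∃ m' : SL₂, g * act p (up c) * g⁻¹ = act p m' := by
    intro g hg c
    have hv : g ![1, 0] ≠ 0 := by
      intro h
      apply e1_ne (F := F)
      apply g.injective
      rw [h, map_zero]
    obtain ⟨l, hl⟩ := exists_mulVec_eq_e1 (g ![1, 0]) hv
    have hl' : act p l⁻¹ ![1, 0] = g ![1, 0] := by
      have h7 : act p l (g ![1, 0]) = ![1, 0] := hl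
      calc act p l⁻¹ ![1, 0] = (act p l)⁻¹ ![1, 0] := by rw [map_inv]
        _ = (act p l)⁻¹ (act p l (g ![1, 0])) := by rw [h7]
        _ = g ![1, 0] := inv_apply_self' _ _
    have hv1 : g ![1, 0] ∈ cjL g (ll F) := by
      rw [mem_cjL, inv_apply_self']
      simp [mem_ll]
    have hv2 : g ![1, 0] ∈ cjL (act p l⁻¹) (ll F) := by
      rw [mem_cjL, ← hl', inv_apply_self']
      simp [mem_ll]
    have heq := SS.eq_of_meet hg (S.hLG l⁻¹) hv hv1 hv2
    have hm : g * act p (up c) * g⁻¹ ∈ cj g (QQ p F) := by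
      rw [mem_cj]
      have : g⁻¹ * (g * act p (up c) * g⁻¹) * g = act p (up c) := by group
      rw [this]
      exact up_mem c
    rw [heq, mem_cj] at hm
    obtain ⟨d, hd⟩ := mem_QQ.1 hm
    refine ⟨l⁻¹ * up d * l⁻¹⁻¹, ?_⟩
    rw [map_mul, map_mul, ← hd, map_inv (act p) l⁻¹]
    group
  intro g hg m
  refine sl2_induction (P := fun m => ∃ m' : SL₂, g * act p m * g⁻¹ = act p m') ?_ ?_ ?_ m
  · rintro a b ⟨a', ha⟩ ⟨b', hb⟩
    refine ⟨a' * b', ?_⟩
    rw [map_mul, map_mul, ← ha, ← hb]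
    group
  · intro c
    exact hA g hg c
  · intro c
    have e : lo c = (wey : SL₂) * up (-c) * wey⁻¹ := by
      have := wey_up (F := F) (-c)
      rw [neg_neg] at this
      rw [this]
      group
    obtain ⟨m', hm'⟩ := hA (g * act p wey) (GG.mul_mem hg (S.hLG _)) (-c)
    refine ⟨m', ?_⟩
    rw [← hm', e, map_mul, map_mul, map_inv]
    group

end Cfsg.Agent.Lib.NatRoot
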