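import Mathlib
import Cfsg.Agent.Lib.NatRoot.TSys

/-!
# Baer-type subgroups: the fixed field has two elements
-/

set_option autoImplicit false
set_option linter.unusedSectionVars false
set_option linter.unusedVariables false

namespace Cfsg.Agent.Lib.NatRoot

open Cfsg.Agent.Lib.SL2NaturalModule Matrix

section gen

variable {p : ℕ} [hp : Fact p.Prime] {W : Type*} [AddCommGroup W] [Module (ZMod p) W]

/-- conjugation -/
def cd (h x : Aut' p W) : Aut' p W := h * x * h⁻¹

theorem cd_mul (h x y : Aut' p W) : cd h (x * y) = cd h x * cd h y := by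
  simp only [cd]; group

theorem cd_cd (h k x : Aut' p W) : cd (h * k) x = cd h (cd k x) := by
  simp only [cd]; group

theorem cd_one (x : Aut' p W) : cd 1 x = x := by
  simp only [cd]; group

theorem cd_inv_cd (h x : Aut' p W) : cd h⁻¹ (cd h x) = x := by
  simp only [cd]; group

/-- commutator value -/
def DD (x : Aut' p W) (w : W) : W := x w - w

theorem DD_cd {h x : Aut' p W} {w : W} (hw : h w = w) : DD (cd h x) w = h (DD x w) := by
  have h1 : h⁻¹ w = w := by
    calc h⁻¹ w = h⁻¹ (h w) := by rw [hw]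
      _ = w := inv_apply_self' _ _
  simp only [DD, cd, mul_apply', map_sub, h1, hw]

end gen

variable {p : ℕ} [hp : Fact p.Prime] {F : Type*} [Field F] [Algebra (ZMod p) F] [Finite F]

local notation "SL₂" => Matrix.SpecialLinearGroup (Fin 2) F

/-! ### Matrix identities in characteristic two -/

theorem id_z (h2 : (2 : F) = 0) {a c : F} (hac : a * c = 1) :
    up a * lo c * up a * up 1 = lo (c * c) * (up a * lo c * up a) := by
  have hone : (1 : F) + 1 = 0 := by rw [one_add_one_eq_two]; exact h2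
  have h3 : 1 + a * c = 0 := by rw [hac]; exact hone
  apply ent_ext <;> simp [ent_mul, ent_up, ent_lo, Matrix.mul_apply, Fin.sum_univ_two]
  · exact h3
  · exact Or.inr h3
  · rw [h3]
    linear_combination (-c) * hac

theorem id_s1 (h2 : (2 : F) = 0) (a : F) :
    up 1 * lo 1 * up 1 * up a = lo a * (up 1 * lo 1 * up 1) := by
  have hone : (1 : F) + 1 = 0 := by rw [one_add_one_eq_two]; exact h2
  apply ent_ext <;> simp [ent_mul, ent_up, ent_lo, Matrix.mul_apply, Fin.sum_univ_two, hone]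

theorem id_s2 (h2 : (2 : F) = 0) (a : F) :
    up 1 * lo 1 * up 1 * lo a = up a * (up 1 * lo 1 * up 1) := by
  have hone : (1 : F) + 1 = 0 := by rw [one_add_one_eq_two]; exact h2
  apply ent_ext <;> simp [ent_mul, ent_up, ent_lo, Matrix.mul_apply, Fin.sum_univ_two, hone]

theorem id_s3 (h2 : (2 : F) = 0) :
    up 1 * lo 1 * up 1 * (up 1 * lo 1 * up 1) = (1 : SL₂) := by
  have hone : (1 : F) + 1 = 0 := by rw [one_add_one_eq_two]; exact h2
  apply ent_ext <;> simp [ent_mul, ent_up, ent_lo, ent_one, Matrix.mul_apply, Fin.sum_univ_two, hone]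

theorem id_d (h2 : (2 : F) = 0) {l : F} (hl : l ≠ 0) :
    up l * lo l⁻¹ * up l * (up 1 * lo 1 * up 1) = tor (Units.mk0 l hl) := by
  have hone : (1 : F) + 1 = 0 := by rw [one_add_one_eq_two]; exact h2
  apply ent_ext <;> simp [ent_mul, ent_up, ent_lo, ent_tor, Matrix.mul_apply, Fin.sum_univ_two, hl, hone]

theorem id_t {l : F} (hl : l ≠ 0) :
    tor (Units.mk0 l hl) * up 1 = up (l * l) * tor (Units.mk0 l hl) := by
  apply ent_ext <;> simp [ent_mul, ent_up, ent_tor, Matrix.mul_apply, Fin.sum_univ_two, hl]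

/-! ### The data -/

/-- The situation of a Baer-type subgroup. -/
structure BaerData (σ : F ≃+* F) (bar : Aut' p (Fin 2 → F)) (Qt : Subgroup (Aut' p (Fin 2 → F))) : Prop where
  h2 : (2 : F) = 0
  hbar : ∀ w i, bar w i = σ (w i)
  hmem : bar ∈ Qt
  hfix : ∀ x ∈ Qt, x ≠ 1 → ∀ w, x w = w → bar w = w
  hfix' : ∀ x ∈ Qt, ∀ w, bar w = w → x w = w
  hcomm : ∀ x ∈ Qt, ∀ w, bar (x w - w) = x w - w
  hcard : Nat.card F ≤ Nat.card Qt
  hnorm : ∀ a, σ a = a → ∀ x ∈ Qt, cd (act p (up a)) x ∈ Qt ∧ cd (act p (lo a)) x ∈ Qt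

variable {σ : F ≃+* F} {bar : Aut' p (Fin 2 → F)} {Qt : Subgroup (Aut' p (Fin 2 → F))}

theorem BaerData.self_add (B : BaerData σ bar Qt) (u : Fin 2 → F) : u + u = 0 := by
  have hone : (1 : F) + 1 = 0 := by rw [one_add_one_eq_two]; exact B.h2
  apply ext2
  · simp only [Pi.add_apply, Pi.zero_apply]
    linear_combination (u 0) * hone
  · simp only [Pi.add_apply, Pi.zero_apply]
    linear_combination (u 1) * hone

theorem BaerData.self_add' (B : BaerData σ bar Qt) (u : F) : u + u = 0 := by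
  have hone : (1 : F) + 1 = 0 := by rw [one_add_one_eq_two]; exact B.h2
  linear_combination u * hone

theorem BaerData.fix_D (B : BaerData σ bar Qt) {x y : Aut' p (Fin 2 → F)} (hx : x ∈ Qt) (hy : y ∈ Qt)
    (w : Fin 2 → F) : x (DD y w) = DD y w := B.hfix' x hx _ (B.hcomm y hy w)

theorem BaerData.D_mul (B : BaerData σ bar Qt) {x y : Aut' p (Fin 2 → F)} (hx : x ∈ Qt) (hy : y ∈ Qt)
    (w : Fin 2 → F) : DD (x * y) w = DD x w + DD y w := by
  have h1 := B.fix_D hx hy w
  have e : y w = DD y w + w := by simp [DD]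
  simp only [DD, mul_apply'] at h1 ⊢
  rw [map_sub, sub_eq_iff_eq_add] at h1
  rw [h1]
  abel

theorem BaerData.D_inj (B : BaerData σ bar Qt) {x y : Aut' p (Fin 2 → F)} (hx : x ∈ Qt) (hy : y ∈ Qt)
    {w : Fin 2 → F} (hw : bar w ≠ w) (h : DD x w = DD y w) : x = y := by
  by_contra hne
  have h1 : x w = y w := by
    simpa [DD] using h
  have h2 : x⁻¹ * y ≠ 1 := by
    intro h3
    exact hne (inv_mul_eq_one.1 h3)
  apply hw
  refine B.hfix _ (Qt.mul_mem (Qt.inv_mem hx) hy) h2 w ?_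
  rw [mul_apply', ← h1, inv_apply_self']

theorem BaerData.sq (B : BaerData σ bar Qt) {x : Aut' p (Fin 2 → F)} (hx : x ∈ Qt) : x * x = 1 := by
  ext w i
  have h1 := B.D_mul hx hx w
  rw [B.self_add] at h1
  have h3 : (x * x) w = w := by
    have : (x * x) w - w = 0 := h1
    exact sub_eq_zero.1 this
  rw [h3]
  rfl

theorem BaerData.comm (B : BaerData σ bar Qt) {x y : Aut' p (Fin 2 → F)} (hx : x ∈ Qt) (hy : y ∈ Qt) :
    x * y = y * x := by
  ext w i
  have h1 := B.D_mul hx hy w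
  have h2 := B.D_mul hy hx w
  have h3 : (x * y) w = (y * x) w := by
    have : (x * y) w - w = (y * x) w - w := by
      show DD (x * y) w = DD (y * x) w
      rw [h1, h2, add_comm]
    exact sub_left_inj.1 this
  rw [h3]

theorem bar_up_of (hbar : ∀ w i, bar w i = σ (w i)) {a : F} (ha : σ a = a) :
    bar * act p (up a) = act p (up a) * bar := by
  ext w i
  fin_cases i
  · show bar (act p (up a) w) 0 = act p (up a) (bar w) 0
    rw [hbar, up_0, up_0, hbar, hbar, map_add, map_mul, ha]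
  · show bar (act p (up a) w) 1 = act p (up a) (bar w) 1
    rw [hbar, up_1, up_1, hbar]

theorem bar_lo_of (hbar : ∀ w i, bar w i = σ (w i)) {a : F} (ha : σ a = a) :
    bar * act p (lo a) = act p (lo a) * bar := by
  ext w i
  fin_cases i
  · show bar (act p (lo a) w) 0 = act p (lo a) (bar w) 0
    rw [hbar, lo_0, lo_0, hbar]
  · show bar (act p (lo a) w) 1 = act p (lo a) (bar w) 1
    rw [hbar, lo_1, lo_1, hbar, hbar, map_add, map_mul, ha]

theorem BaerData.bar_up (B : BaerData σ bar Qt) {a : F} (ha : σ a = a) :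
    bar * act p (up a) = act p (up a) * bar := bar_up_of B.hbar ha

theorem BaerData.bar_lo (B : BaerData σ bar Qt) {a : F} (ha : σ a = a) :
    bar * act p (lo a) = act p (lo a) * bar := bar_lo_of B.hbar ha

theorem cd_of_comm {h x : Aut' p (Fin 2 → F)} (hc : x * h = h * x) : cd h x = x := by
  simp only [cd]
  rw [← hc]
  group

/-- fixed by all upper unitriangular elements over the fixed field -/
def Uf (σ : F ≃+* F) (y : Aut' p (Fin 2 → F)) : Prop := ∀ a, σ a = a → cd (act p (up a)) y = y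

/-- fixed by all lower unitriangular elements over the fixed field -/
def Lf (σ : F ≃+* F) (y : Aut' p (Fin 2 → F)) : Prop := ∀ a, σ a = a → cd (act p (lo a)) y = y

theorem lo_fix_w2 (c η : F) : act p (lo c) ![0, η] = ![0, η] := by
  apply ext2
  · rw [lo_0]
  · rw [lo_1]; simp

theorem up_fix_w1 (c η : F) : act p (up c) ![η, 0] = ![η, 0] := by
  apply ext2
  · rw [up_0]; simp
  · rw [up_1]

theorem BaerData.w2_ne (B : BaerData σ bar Qt) {η : F} (hη : σ η ≠ η) : bar ![0, η] ≠ ![0, η] := by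
  intro h
  have := congrFun h 1
  rw [B.hbar] at this
  exact hη this

theorem BaerData.w1_ne (B : BaerData σ bar Qt) {η : F} (hη : σ η ≠ η) : bar ![η, 0] ≠ ![η, 0] := by
  intro h
  have := congrFun h 0
  rw [B.hbar] at this
  exact hη this

theorem BaerData.coord_fix (B : BaerData σ bar Qt) {x : Aut' p (Fin 2 → F)} (hx : x ∈ Qt)
    (w : Fin 2 → F) (i : Fin 2) : σ (DD x w i) = DD x w i := by
  have := congrFun (B.hcomm x hx w) i
  rw [B.hbar] at this
  exact this

/-- **First claim.** -/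
theorem BaerData.claim1 (B : BaerData σ bar Qt) {y : Aut' p (Fin 2 → F)} (hy : y ∈ Qt)
    (hU : Uf σ y) {η : F} (hη : σ η ≠ η) : DD y ![0, η] 0 = 0 := by
  by_contra hr
  set w₂ : Fin 2 → F := ![0, η] with hw₂
  set r := DD y w₂ 0 with hrr
  have hwne := B.w2_ne hη
  have hb0 : DD bar w₂ 0 = 0 := by
    simp only [DD, Pi.sub_apply]
    rw [B.hbar]
    simp [hw₂]
  have hb1 : DD bar w₂ 1 = σ η - η := by
    simp only [DD, Pi.sub_apply]
    rw [B.hbar]
    simp [hw₂]
  have hτ : σ η - η ≠ 0 := sub_ne_zero.2 hη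
  have hrσ : σ r = r := B.coord_fix hy w₂ 0
  have hτσ : σ (σ η - η) = σ η - η := by
    have := B.coord_fix B.hmem w₂ 1
    rwa [hb1] at this
  set c := (σ η - η) / r with hc
  have hc0 : c ≠ 0 := div_ne_zero hτ hr
  have hcσ : σ c = c := by
    rw [hc, map_div₀, hτσ, hrσ]
  have hcr : c * r = σ η - η := div_mul_cancel₀ _ hr
  -- the lower element sends y to y * bar
  have E1 : cd (act p (lo c)) y = y * bar := by
    apply B.D_inj (B.hnorm c hcσ y hy).2 (Qt.mul_mem hy B.hmem) hwne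
    rw [DD_cd (lo_fix_w2 c η), B.D_mul hy B.hmem]
    apply ext2
    · rw [lo_0, Pi.add_apply, hb0, add_zero]
    · rw [lo_1, Pi.add_apply, hb1, ← hcr]
  set a := c⁻¹ with ha
  have haσ : σ a = a := by rw [ha, map_inv₀, hcσ]
  have hac : a * c = 1 := inv_mul_cancel₀ hc0
  have E2 : cd (act p (up a)) (y * bar) = y * bar := by
    rw [cd_mul, hU a haσ, cd_of_comm (B.bar_up haσ)]
  let Z : Aut' p (Fin 2 → F) := act p (up a * lo c * up a)
  have hZ : Z = act p (up a) * act p (lo c) * act p (up a) := by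
    simp only [Z, map_mul]
  have E3 : cd Z y = y * bar := by
    rw [hZ, cd_cd, cd_cd, hU a haσ, E1, E2]
  have hzz : Z * act p (up 1) = act p (lo (c * c)) * Z := by
    simp only [Z]
    rw [← map_mul, ← map_mul, id_z B.h2 hac]
  have hcc : σ (c * c) = c * c := by rw [map_mul, hcσ]
  have E4 : cd (act p (lo (c * c))) (y * bar) = y * bar := by
    rw [← E3, ← cd_cd, ← hzz, cd_cd, hU 1 (map_one σ)]
  have E5 : cd (act p (lo (c * c))) y = y := by
    rw [cd_mul, cd_of_comm (B.bar_lo hcc)] at E4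
    exact mul_right_cancel E4
  have E6 := DD_cd (x := y) (lo_fix_w2 (p := p) (c * c) η)
  rw [E5] at E6
  have E7 := congrFun E6 1
  rw [lo_1] at E7
  have E8 : c * c * r = 0 := by
    have : DD y ![0, η] 1 + c * c * DD y ![0, η] 0 = DD y ![0, η] 1 := E7.symm
    simpa using this
  exact (mul_ne_zero (mul_ne_zero hc0 hc0) hr) E8

theorem BaerData.Lf_of_Uf (B : BaerData σ bar Qt) {y : Aut' p (Fin 2 → F)} (hy : y ∈ Qt)
    (hU : Uf σ y) {η : F} (hη : σ η ≠ η) : Lf σ y := by
  intro a ha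
  apply B.D_inj (B.hnorm a ha y hy).2 hy (B.w2_ne hη)
  rw [DD_cd (lo_fix_w2 a η)]
  apply ext2
  · rw [lo_0]
  · rw [lo_1, B.claim1 hy hU hη]
    simp

theorem BaerData.Uf_of_Lf (B : BaerData σ bar Qt) {y : Aut' p (Fin 2 → F)} (hy : y ∈ Qt)
    (hL : Lf σ y) {η : F} (hη : σ η ≠ η) : Uf σ y := by
  let S : Aut' p (Fin 2 → F) := act p (up 1 * lo 1 * up 1)
  have hS : S = act p (up 1) * act p (lo 1) * act p (up 1) := by
    simp only [S, map_mul]
  have hone : σ 1 = 1 := map_one σ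
  have hn : ∀ x ∈ Qt, cd S x ∈ Qt := by
    intro x hx
    rw [hS, cd_cd, cd_cd]
    exact (B.hnorm 1 hone _ (B.hnorm 1 hone _ (B.hnorm 1 hone _ hx).1).2).1
  have hs1 : ∀ a : F, S * act p (lo a) = act p (up a) * S := by
    intro a
    simp only [S]
    rw [← map_mul, ← map_mul, id_s2 B.h2]
  have hs2 : S * S = 1 := by
    simp only [S]
    rw [← map_mul, id_s3 B.h2, map_one]
  have hy' : Uf σ (cd S y) := by
    intro a ha
    rw [← cd_cd, ← hs1, cd_cd, hL a ha]
  have hL' := B.Lf_of_Uf (hn y hy) hy' hη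
  have hyy : cd S (cd S y) = y := by
    rw [← cd_cd, hs2, cd_one]
  intro a ha
  rw [← hyy, ← cd_cd, ← hs1, cd_cd, hL' a ha]

theorem BaerData.inv_eq (B : BaerData σ bar Qt) {x : Aut' p (Fin 2 → F)} (hx : x ∈ Qt) : x⁻¹ = x :=
  inv_eq_of_mul_eq_one_left (B.sq hx)

/-- The commutator with an upper element is centralized. -/
theorem BaerData.claim4 (B : BaerData σ bar Qt) {x : Aut' p (Fin 2 → F)} (hx : x ∈ Qt)
    {a : F} (ha : σ a = a) {η : F} (hη : σ η ≠ η) : Uf σ (cd (act p (up a)) x * x⁻¹) := by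
  intro b hb
  have hxa := (B.hnorm a ha x hx).1
  have hm : cd (act p (up a)) x * x⁻¹ ∈ Qt := Qt.mul_mem hxa (Qt.inv_mem hx)
  apply B.D_inj (B.hnorm b hb _ hm).1 hm (B.w1_ne hη)
  rw [DD_cd (up_fix_w1 b η)]
  have h1 : DD (cd (act p (up a)) x * x⁻¹) ![η, 0] 1 = 0 := by
    rw [B.inv_eq hx, B.D_mul hxa hx, DD_cd (up_fix_w1 a η), Pi.add_apply, up_1]
    exact B.self_add' _
  apply ext2
  · rw [up_0, h1]; simp
  · rw [up_1]

/-- The commutator with a lower element is centralized. -/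
theorem BaerData.claim5 (B : BaerData σ bar Qt) {x : Aut' p (Fin 2 → F)} (hx : x ∈ Qt)
    {a : F} (ha : σ a = a) {η : F} (hη : σ η ≠ η) : Lf σ (cd (act p (lo a)) x * x⁻¹) := by
  intro b hb
  have hxa := (B.hnorm a ha x hx).2
  have hm : cd (act p (lo a)) x * x⁻¹ ∈ Qt := Qt.mul_mem hxa (Qt.inv_mem hx)
  apply B.D_inj (B.hnorm b hb _ hm).2 hm (B.w2_ne hη)
  rw [DD_cd (lo_fix_w2 b η)]
  have h1 : DD (cd (act p (lo a)) x * x⁻¹) ![0, η] 0 = 0 := by
    rw [B.inv_eq hx, B.D_mul hxa hx, DD_cd (lo_fix_w2 a η), Pi.add_apply, lo_0]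
    exact B.self_add' _
  apply ext2
  · rw [lo_0]
  · rw [lo_1, h1]; simp

/-- The generators acting on the quotient. -/
def Gd (σ : F ≃+* F) (Qt : Subgroup (Aut' p (Fin 2 → F))) (h : Aut' p (Fin 2 → F)) : Prop :=
  (∀ y ∈ Qt, cd h y ∈ Qt) ∧ (∀ y ∈ Qt, Uf σ y → cd h y = y) ∧ (∀ x ∈ Qt, Uf σ (cd h x * x⁻¹))

theorem Uf_mul {y z : Aut' p (Fin 2 → F)} (hy : Uf σ y) (hz : Uf σ z) : Uf σ (y * z) := by
  intro a ha
  rw [cd_mul, hy a ha, hz a ha]

theorem Uf_one : Uf σ (1 : Aut' p (Fin 2 → F)) := by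
  intro a ha
  simp [cd]

theorem Uf_pow {y : Aut' p (Fin 2 → F)} (hy : Uf σ y) (n : ℕ) : Uf σ (y ^ n) := by
  induction n with
  | zero => simpa using Uf_one
  | succ n ih => rw [pow_succ]; exact Uf_mul ih hy

theorem Gd.mul {h k : Aut' p (Fin 2 → F)} (hh : Gd σ Qt h) (hk : Gd σ Qt k) : Gd σ Qt (h * k) := by
  refine ⟨fun y hy => ?_, fun y hy hU => ?_, fun x hx => ?_⟩
  · rw [cd_cd]
    exact hh.1 _ (hk.1 _ hy)
  · rw [cd_cd, hk.2.1 y hy hU, hh.2.1 y hy hU]
  · have hf := hk.2.2 x hx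
    have hfm : cd k x * x⁻¹ ∈ Qt := Qt.mul_mem (hk.1 x hx) (Qt.inv_mem hx)
    have e2 : cd h (cd k x) * x⁻¹ = (cd k x * x⁻¹) * (cd h x * x⁻¹) := by
      have e3 : cd h (cd k x) = cd h ((cd k x * x⁻¹) * x) := by
        rw [inv_mul_cancel_right]
      rw [e3, cd_mul, hh.2.1 _ hfm hf, mul_assoc]
    rw [cd_cd, e2]
    exact Uf_mul hf (hh.2.2 x hx)

theorem BaerData.gd_up (B : BaerData σ bar Qt) {a : F} (ha : σ a = a) {η : F} (hη : σ η ≠ η) :
    Gd σ Qt (act p (up a)) :=
  ⟨fun y hy => (B.hnorm a ha y hy).1, fun y hy hU => hU a ha, fun x hx => B.claim4 hx ha hη⟩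

theorem BaerData.gd_lo (B : BaerData σ bar Qt) {a : F} (ha : σ a = a) {η : F} (hη : σ η ≠ η) :
    Gd σ Qt (act p (lo a)) := by
  refine ⟨fun y hy => (B.hnorm a ha y hy).2, fun y hy hU => B.Lf_of_Uf hy hU hη a ha, fun x hx => ?_⟩
  have hxa := (B.hnorm a ha x hx).2
  exact B.Uf_of_Lf (Qt.mul_mem hxa (Qt.inv_mem hx)) (B.claim5 hx ha hη) hη

/-- An element of odd order in the generated monoid acts trivially. -/
theorem BaerData.odd_fix (B : BaerData σ bar Qt) {d : Aut' p (Fin 2 → F)} (hd : Gd σ Qt d) {N : ℕ}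
    (hN : Odd N) (hdN : d ^ N = 1) {x : Aut' p (Fin 2 → F)} (hx : x ∈ Qt) : cd d x = x := by
  set g := cd d x * x⁻¹ with hg
  have hgm : g ∈ Qt := Qt.mul_mem (hd.1 x hx) (Qt.inv_mem hx)
  have hgU : Uf σ g := hd.2.2 x hx
  have hpow : ∀ n : ℕ, cd (d ^ n) x * x⁻¹ = g ^ n := by
    intro n
    induction n with
    | zero => simp [cd]
    | succ n ih =>
      have h1 : cd (d ^ n) x = g ^ n * x := by
        rw [← ih]; group
      rw [pow_succ', cd_cd, h1, cd_mul, hd.2.1 _ (Qt.pow_mem hgm n) (Uf_pow hgU n), pow_succ, hg]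
      group
  have h1 := hpow N
  rw [hdN, cd_one, mul_inv_cancel] at h1
  have h3 : g * g = 1 := B.sq hgm
  obtain ⟨m, rfl⟩ := hN
  have h4 : g = 1 := by
    have : g ^ (2 * m + 1) = g := by
      rw [pow_succ, pow_mul, pow_two, h3, one_pow, one_mul]
    rw [← this, ← h1]
  have h5 : cd d x * x⁻¹ = 1 := h4
  exact mul_inv_eq_one.1 h5

/-- **The fixed field of a Baer-type subgroup has two elements.** -/
theorem BaerData.fixed (B : BaerData σ bar Qt) {η : F} (hη : σ η ≠ η) {l : F} (hl : σ l = l) :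
    l = 0 ∨ l = 1 := by
  by_cases hl0 : l = 0
  · exact Or.inl hl0
  right
  -- a witness for the second coordinate
  obtain ⟨x, hx, hs⟩ : ∃ x ∈ Qt, DD x ![η, 0] 1 ≠ 0 := by
    by_contra hall
    push Not at hall
    let f : Qt → F := fun x => DD x.1 ![η, 0] 0
    have hf : Function.Injective f := by
      intro a b hab
      apply Subtype.ext
      apply B.D_inj a.2 b.2 (B.w1_ne hη)
      apply ext2 hab
      rw [hall _ a.2, hall _ b.2]
    have hb : Function.Bijective f := hf.bijective_of_nat_card_le B.hcard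
    obtain ⟨a, ha⟩ := hb.2 η
    apply hη
    have := B.coord_fix a.2 ![η, 0] 0
    have h2 : DD a.1 ![η, 0] 0 = η := ha
    rwa [h2] at this
  -- the torus element
  let u : Fˣ := Units.mk0 l hl0
  let d : Aut' p (Fin 2 → F) := act p (tor u)
  have hone : σ 1 = 1 := map_one σ
  have hlinv : σ l⁻¹ = l⁻¹ := by rw [map_inv₀, hl]
  have hd : d = act p (up l) * act p (lo l⁻¹) * act p (up l) *
      (act p (up 1) * act p (lo 1) * act p (up 1)) := by
    simp only [d, u]
    rw [← id_d B.h2 hl0]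
    simp only [map_mul]
  have hG : Gd σ Qt d := by
    rw [hd]
    exact (((B.gd_up hl hη).mul (B.gd_lo hlinv hη)).mul (B.gd_up hl hη)).mul
      (((B.gd_up hone hη).mul (B.gd_lo hone hη)).mul (B.gd_up hone hη))
  haveI : Fintype F := Fintype.ofFinite F
  have hcardeven : 2 ∣ Fintype.card F := by
    have h1 : addOrderOf (1 : F) = 2 := by
      apply addOrderOf_eq_prime
      · rw [two_nsmul]
        exact B.self_add' 1
      · exact one_ne_zero
    rw [← h1, ← Nat.card_eq_fintype_card]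
    exact addOrderOf_dvd_natCard _
  have hN : Odd (Fintype.card F - 1) := by
    have : 2 ≤ Fintype.card F := Fintype.one_lt_card
    obtain ⟨k, hk⟩ := hcardeven
    exact ⟨k - 1, by omega⟩
  have hdN : d ^ (Fintype.card F - 1) = 1 := by
    have h1 : ∀ n : ℕ, (tor u : SL₂) ^ n = tor (u ^ n) := by
      intro n
      induction n with
      | zero => simp [tor_one]
      | succ n ih => rw [pow_succ, ih, tor_mul, pow_succ]
    have h2 : u ^ (Fintype.card F - 1) = 1 := by
      apply Units.ext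
      simp only [Units.val_pow_eq_pow_val, Units.val_one]
      exact FiniteField.pow_card_sub_one_eq_one l hl0
    simp only [d]
    rw [← map_pow, h1, h2, tor_one, map_one]
  have hfix : ∀ y ∈ Qt, cd d y = y := fun y hy => B.odd_fix hG hN hdN hy
  have hfixinv : cd d⁻¹ x = x := by
    conv_lhs => rw [← hfix x hx]
    exact cd_inv_cd _ _
  have hU1 := B.hnorm 1 hone x hx
  have htt : d * act p (up 1) * d⁻¹ = act p (up (l * l)) := by
    have := congrArg (act p) (id_t hl0)
    simp only [map_mul] at this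
    simp only [d, u]
    rw [this]
    group
  have E1 : cd (act p (up (l * l))) x = cd (act p (up 1)) x := by
    rw [← htt, cd_cd, cd_cd, hfixinv, hfix _ hU1.1]
  have E2 : act p (up (l * l)) (DD x ![η, 0]) = act p (up (1 : F)) (DD x ![η, 0]) := by
    rw [← DD_cd (up_fix_w1 _ η), ← DD_cd (up_fix_w1 _ η), E1]
  have E3 := congrFun E2 0
  rw [up_0, up_0] at E3
  have E4 : l * l = 1 := by
    have : l * l * DD x ![η, 0] 1 = 1 * DD x ![η, 0] 1 := add_left_cancel E3
    exact mul_right_cancel₀ hs this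
  have E5 : (l - 1) * (l - 1) = 0 := by
    have hone' : (1 : F) + 1 = 0 := by rw [one_add_one_eq_two]; exact B.h2
    linear_combination E4 + (1 - l) * hone'
  have := mul_self_eq_zero.1 E5
  exact sub_eq_zero.1 this

end Cfsg.Agent.Lib.NatRoot
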