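import Mathlib
import Cfsg.Agent.Lib.NatRoot.Baer

/-!
# The field with four elements: a concrete model of the group generated
-/

set_option autoImplicit false
set_option linter.unusedSectionVars false
set_option linter.unusedVariables false

namespace Cfsg.Agent.Lib.NatRoot

open Cfsg.Agent.Lib.SL2NaturalModule Matrix

/-- four binary coordinates -/
abbrev Z4 : Type := ZMod 2 × ZMod 2 × ZMod 2 × ZMod 2

def fu1 (v : Z4) : Z4 := (v.1 + v.2.2.1, v.2.1 + v.2.2.2, v.2.2.1, v.2.2.2)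
def fuw (v : Z4) : Z4 := (v.1 + v.2.2.2, v.2.1 + v.2.2.1 + v.2.2.2, v.2.2.1, v.2.2.2)
def fl1 (v : Z4) : Z4 := (v.1, v.2.1, v.2.2.1 + v.1, v.2.2.2 + v.2.1)
def flw (v : Z4) : Z4 := (v.1, v.2.1, v.2.2.1 + v.2.1, v.2.2.2 + v.1 + v.2.1)
def fbar (v : Z4) : Z4 := (v.1 + v.2.1, v.2.1, v.2.2.1 + v.2.2.2, v.2.2.2)
def fxb (v : Z4) : Z4 := (v.1 + v.2.2.2, v.2.1, v.2.2.1 + v.2.1 + v.2.2.2, v.2.2.2)

/-- the five words -/
def fy : Fin 5 → Z4 → Z4
  | 0 => fl1 ∘ fu1
  | 1 => fl1 ∘ fuw ∘ flw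
  | 2 => flw ∘ fuw ∘ fl1 ∘ fuw
  | 3 => fxb ∘ fl1 ∘ fuw ∘ flw ∘ fxb
  | 4 => fl1 ∘ fxb ∘ fuw ∘ flw ∘ fxb ∘ fbar

theorem fy3 : ∀ i, ∀ v, fy i (fy i (fy i v)) = v := by decide +kernel

theorem fy2 : ∀ i j, i ≠ j → ∀ v, fy i (fy j (fy i (fy j v))) = v := by decide +kernel

variable {p : ℕ} [hp : Fact p.Prime] {F : Type*} [Field F] [Algebra (ZMod p) F] [Finite F]

/-- the prime field inside the field, by cases -/
def iota (a : ZMod 2) : F := if a = 0 then 0 else 1

theorem zmod2_cases (a : ZMod 2) : a = 0 ∨ a = 1 := by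
  revert a; decide

@[simp] theorem iota_zero : iota (0 : ZMod 2) = (0 : F) := by simp [iota]
@[simp] theorem iota_one : iota (1 : ZMod 2) = (1 : F) := by simp [iota]

theorem iota_add (h2 : (2 : F) = 0) (a b : ZMod 2) : iota (a + b) = (iota a + iota b : F) := by
  have hone : (1 : F) + 1 = 0 := by rw [one_add_one_eq_two]; exact h2
  have h11 : (1 : ZMod 2) + 1 = 0 := by decide
  rcases zmod2_cases a with rfl | rfl <;> rcases zmod2_cases b with rfl | rfl <;>
    simp [h11, hone]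

/-- The field with four elements. -/
structure F4Data (ω : F) : Prop where
  h2 : (2 : F) = 0
  hsq : ω * ω = ω + 1
  hall : ∀ x : F, x = 0 ∨ x = 1 ∨ x = ω ∨ x = ω + 1

/-- coordinates -/
def EE (ω : F) (v : Z4) : Fin 2 → F :=
  ![iota v.1 + iota v.2.1 * ω, iota v.2.2.1 + iota v.2.2.2 * ω]

@[simp] theorem EE_0 (ω : F) (v : Z4) : EE ω v 0 = iota v.1 + iota v.2.1 * ω := rfl
@[simp] theorem EE_1 (ω : F) (v : Z4) : EE ω v 1 = iota v.2.2.1 + iota v.2.2.2 * ω := rfl

theorem iota_surj {ω : F} (D : F4Data ω) (x : F) :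
    ∃ a b : ZMod 2, (iota a + iota b * ω : F) = x := by
  rcases D.hall x with rfl | rfl | rfl | rfl
  · exact ⟨0, 0, by simp⟩
  · exact ⟨1, 0, by simp⟩
  · exact ⟨0, 1, by simp⟩
  · exact ⟨1, 1, by simp [add_comm]⟩

theorem EE_surj {ω : F} (D : F4Data ω) (w : Fin 2 → F) : ∃ v, EE ω v = w := by
  obtain ⟨a, b, h1⟩ := iota_surj D (w 0)
  obtain ⟨c, d, h2⟩ := iota_surj D (w 1)
  exact ⟨(a, b, c, d), ext2 h1 h2⟩

/-- representation on the model -/
def Rep (ω : F) (g : Aut' p (Fin 2 → F)) (f : Z4 → Z4) : Prop := ∀ v, g (EE ω v) = EE ω (f v)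

theorem Rep.mul {ω : F} {g h : Aut' p (Fin 2 → F)} {f k : Z4 → Z4} (h1 : Rep ω g f) (h2 : Rep ω h k) :
    Rep ω (g * h) (f ∘ k) := by
  intro v
  simp only [mul_apply', Function.comp]
  rw [h2, h1]

section reps

variable {ω : F} (D : F4Data ω)
include D

theorem rep_u1 : Rep ω (act p (up (1 : F))) fu1 := by
  intro v
  apply ext2
  · rw [up_0]
    simp only [EE_0, EE_1, fu1, iota_add D.h2]
    ring
  · rw [up_1]
    simp only [EE_1, fu1]

theorem rep_uw : Rep ω (act p (up ω)) fuw := by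
  intro v
  apply ext2
  · rw [up_0]
    simp only [EE_0, EE_1, fuw, iota_add D.h2]
    linear_combination (iota v.2.2.2 : F) * D.hsq
  · rw [up_1]
    simp only [EE_1, fuw]

theorem rep_l1 : Rep ω (act p (lo (1 : F))) fl1 := by
  intro v
  apply ext2
  · rw [lo_0]
    simp only [EE_0, fl1]
  · rw [lo_1]
    simp only [EE_0, EE_1, fl1, iota_add D.h2]
    ring

theorem rep_lw : Rep ω (act p (lo ω)) flw := by
  intro v
  apply ext2
  · rw [lo_0]
    simp only [EE_0, flw]
  · rw [lo_1]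
    simp only [EE_0, EE_1, flw, iota_add D.h2]
    linear_combination (iota v.2.1 : F) * D.hsq

end reps

theorem iota_fix (σ : F ≃+* F) (a : ZMod 2) : σ (iota a) = iota a := by
  rcases zmod2_cases a with rfl | rfl <;> simp

theorem rep_bar {ω : F} (D : F4Data ω) {σ : F ≃+* F} (hσ : σ ω = ω + 1) {bar : Aut' p (Fin 2 → F)}
    (hbar : ∀ w i, bar w i = σ (w i)) : Rep ω bar fbar := by
  intro v
  apply ext2
  · rw [hbar]
    simp only [EE_0, fbar, iota_add D.h2, map_add, map_mul, iota_fix, hσ]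
    ring
  · rw [hbar]
    simp only [EE_1, fbar, iota_add D.h2, map_add, map_mul, iota_fix, hσ]
    ring

theorem DD_add (x : Aut' p (Fin 2 → F)) (u v : Fin 2 → F) : DD x (u + v) = DD x u + DD x v := by
  simp only [DD, map_add]
  abel

theorem DD_zero (x : Aut' p (Fin 2 → F)) : DD x 0 = 0 := by
  simp [DD]

variable {σ : F ≃+* F} {bar : Aut' p (Fin 2 → F)} {Qt : Subgroup (Aut' p (Fin 2 → F))}

/-- **The second generator.** -/
theorem BaerData.exists_xb (B : BaerData σ bar Qt) {ω : F} (D : F4Data ω) (hσ : σ ω = ω + 1)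
    (hF0 : ∀ l, σ l = l → l = 0 ∨ l = 1) (hcard : Nat.card F = 4) : ∃ x ∈ Qt, Rep ω x fxb := by
  classical
  have hone : (1 : F) + 1 = 0 := by rw [one_add_one_eq_two]; exact B.h2
  have hωσ : σ ω ≠ ω := by
    rw [hσ]
    intro h
    have : (1 : F) = 0 := by
      have h3 : ω + 1 = ω + 0 := by rw [h, add_zero]
      exact add_left_cancel h3
    exact one_ne_zero this
  set w₁ : Fin 2 → F := ![ω, 0] with hw₁
  set w₂ : Fin 2 → F := ![0, ω] with hw₂
  have hc : ∀ x ∈ Qt, ∀ w i, DD x w i = 0 ∨ DD x w i = 1 := fun x hx w i => hF0 _ (B.coord_fix hx w i)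
  have h1ne : w₁ ≠ 0 ∨ True := Or.inr trivial
  have hw1ne := B.w1_ne hωσ
  have hw2ne := B.w2_ne hωσ
  -- the first coordinate is a bijection
  obtain ⟨x, hx, hx0, hx1⟩ : ∃ x ∈ Qt, DD x w₁ 0 = 0 ∧ DD x w₁ 1 = 1 := by
    let g : Qt → Bool × Bool := fun x => (decide (DD x.1 w₁ 0 = 1), decide (DD x.1 w₁ 1 = 1))
    have hg : Function.Injective g := by
      intro a b hab
      have h1 : (DD a.1 w₁ 0 = 1) ↔ (DD b.1 w₁ 0 = 1) := by
        simpa [g] using congrArg Prod.fst hab
      have h2 : (DD a.1 w₁ 1 = 1) ↔ (DD b.1 w₁ 1 = 1) := by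
        simpa [g] using congrArg Prod.snd hab
      apply Subtype.ext
      apply B.D_inj a.2 b.2 hw1ne
      apply ext2
      · rcases hc _ a.2 w₁ 0 with ha | ha <;> rcases hc _ b.2 w₁ 0 with hb | hb
        · rw [ha, hb]
        · exact absurd (h1.2 hb) (by rw [ha]; exact zero_ne_one)
        · exact absurd (h1.1 ha) (by rw [hb]; exact zero_ne_one)
        · rw [ha, hb]
      · rcases hc _ a.2 w₁ 1 with ha | ha <;> rcases hc _ b.2 w₁ 1 with hb | hb
        · rw [ha, hb]
        · exact absurd (h2.2 hb) (by rw [ha]; exact zero_ne_one)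
        · exact absurd (h2.1 ha) (by rw [hb]; exact zero_ne_one)
        · rw [ha, hb]
    have hb : Function.Bijective g := by
      apply hg.bijective_of_nat_card_le
      have : Nat.card (Bool × Bool) = 4 := by simp
      rw [this, ← hcard]
      exact B.hcard
    obtain ⟨a, ha⟩ := hb.2 (false, true)
    refine ⟨a.1, a.2, ?_, ?_⟩
    · have h1 : ¬ DD a.1 w₁ 0 = 1 := by
        have := congrArg Prod.fst ha
        simpa [g] using this
      exact (hc _ a.2 w₁ 0).resolve_right h1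
    · have := congrArg Prod.snd ha
      simpa [g] using this
  -- values of bar
  have hb1 : DD bar w₁ = ![1, 0] := by
    apply ext2
    · simp only [DD, Pi.sub_apply]
      rw [B.hbar]
      simp [hw₁, hσ]
    · simp only [DD, Pi.sub_apply]
      rw [B.hbar]
      simp [hw₁]
  have hb2 : DD bar w₂ = ![0, 1] := by
    apply ext2
    · simp only [DD, Pi.sub_apply]
      rw [B.hbar]
      simp [hw₂]
    · simp only [DD, Pi.sub_apply]
      rw [B.hbar]
      simp [hw₂, hσ]
  have hxbar : x ≠ bar := by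
    rintro rfl
    rw [hb1] at hx0
    simp at hx0
  have hxone : x ≠ 1 := by
    rintro rfl
    simp [DD] at hx1
  -- second coordinate
  have hr : DD x w₂ 0 = 1 := by
    rcases hc x hx w₂ 0 with hr | hr
    · exfalso
      rcases hc x hx w₂ 1 with hs | hs
      · have : x w₂ = w₂ := by
          have : DD x w₂ = 0 := ext2 hr hs
          exact sub_eq_zero.1 this
        exact hw2ne (B.hfix x hx hxone _ this)
      · apply hxbar
        apply B.D_inj hx B.hmem hw2ne
        rw [hb2]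
        exact ext2 hr hs
    · exact hr
  have hs : DD x w₂ 1 = 1 := by
    rcases hc x hx w₂ 1 with hs | hs
    · exfalso
      apply hxbar
      have hw3 : bar (w₁ + w₂) ≠ w₁ + w₂ := by
        intro h
        have := congrFun h 0
        rw [B.hbar] at this
        simp only [Pi.add_apply, hw₁, hw₂] at this
        simp at this
        exact hωσ this
      apply B.D_inj hx B.hmem hw3
      rw [DD_add, DD_add, hb1, hb2]
      apply ext2
      · simp only [Pi.add_apply, hx0, hr]; simp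
      · simp only [Pi.add_apply, hx1, hs]; simp
    · exact hs
  refine ⟨x, hx, ?_⟩
  intro v
  -- decomposition
  have hdec : EE ω v = ![iota v.1, iota v.2.2.1] + ![iota v.2.1 * ω, 0] + ![0, iota v.2.2.2 * ω] := by
    apply ext2 <;> simp
  have hu : DD x ![iota v.1, iota v.2.2.1] = 0 := by
    have : x ![iota v.1, iota v.2.2.1] = ![iota v.1, iota v.2.2.1] := by
      apply B.hfix' x hx
      apply ext2
      · rw [B.hbar]; simp [iota_fix]
      · rw [B.hbar]; simp [iota_fix]
    exact sub_eq_zero.2 this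
  have hb' : DD x ![iota v.2.1 * ω, 0] = ![0, iota v.2.1] := by
    rcases zmod2_cases v.2.1 with h | h
    · rw [h]
      have : (![iota (0 : ZMod 2) * ω, 0] : Fin 2 → F) = 0 := by
        apply ext2 <;> simp
      rw [this, DD_zero]
      apply ext2 <;> simp
    · rw [h]
      have : (![iota (1 : ZMod 2) * ω, 0] : Fin 2 → F) = w₁ := by
        apply ext2 <;> simp [hw₁]
      rw [this]
      apply ext2
      · simpa using hx0
      · simpa using hx1
  have hd' : DD x ![0, iota v.2.2.2 * ω] = ![iota v.2.2.2, iota v.2.2.2] := by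
    rcases zmod2_cases v.2.2.2 with h | h
    · rw [h]
      have : (![0, iota (0 : ZMod 2) * ω] : Fin 2 → F) = 0 := by
        apply ext2 <;> simp
      rw [this, DD_zero]
      apply ext2 <;> simp
    · rw [h]
      have : (![0, iota (1 : ZMod 2) * ω] : Fin 2 → F) = w₂ := by
        apply ext2 <;> simp [hw₂]
      rw [this]
      apply ext2
      · simpa using hr
      · simpa using hs
  have hD : DD x (EE ω v) = ![iota v.2.2.2, iota v.2.1 + iota v.2.2.2] := by
    rw [hdec, DD_add, DD_add, hu, hb', hd']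
    apply ext2
    · simp
    · simp
  have hfin : x (EE ω v) = DD x (EE ω v) + EE ω v := by
    simp [DD]
  rw [hfin, hD]
  apply ext2
  · simp only [Pi.add_apply, EE_0, fxb, iota_add B.h2]
    simp
    ring
  · simp only [Pi.add_apply, EE_1, fxb, iota_add B.h2]
    simp
    ring

/-- **Five elements of order three.** -/
theorem exists_clique {ω : F} (D : F4Data ω) {xb bar : Aut' p (Fin 2 → F)}
    (hbar : Rep ω bar fbar) (hxb : Rep ω xb fxb) (K : Subgroup (Aut' p (Fin 2 → F)))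
    (h1 : act p (up (1 : F)) ∈ K) (h2 : act p (up ω) ∈ K) (h3 : act p (lo (1 : F)) ∈ K)
    (h4 : act p (lo ω) ∈ K) (h5 : bar ∈ K) (h6 : xb ∈ K) :
    ∃ y : Fin 5 → Aut' p (Fin 2 → F), (∀ i, y i ∈ K) ∧ (∀ i, y i ^ 3 = 1) ∧
      (∀ i j, i ≠ j → (y i * y j) ^ 2 = 1) ∧ y 0 ≠ 1 := by
  let u1 := act p (up (1 : F))
  let uw := act p (up ω)
  let l1 := act p (lo (1 : F))
  let lw := act p (lo ω)
  let y : Fin 5 → Aut' p (Fin 2 → F) :=
    ![l1 * u1, l1 * (uw * lw), lw * (uw * (l1 * uw)), xb * (l1 * (uw * (lw * xb))),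
      l1 * (xb * (uw * (lw * (xb * bar))))]
  have ru1 : Rep ω u1 fu1 := rep_u1 D
  have ruw : Rep ω uw fuw := rep_uw D
  have rl1 : Rep ω l1 fl1 := rep_l1 D
  have rlw : Rep ω lw flw := rep_lw D
  have hrep : ∀ i, Rep ω (y i) (fy i) := by
    intro i
    fin_cases i
    · exact rl1.mul ru1
    · exact rl1.mul (ruw.mul rlw)
    · exact rlw.mul (ruw.mul (rl1.mul ruw))
    · exact hxb.mul (rl1.mul (ruw.mul (rlw.mul hxb)))
    · exact rl1.mul (hxb.mul (ruw.mul (rlw.mul (hxb.mul hbar))))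
  have hext : ∀ g : Aut' p (Fin 2 → F), (∀ v, g (EE ω v) = EE ω v) → g = 1 := by
    intro g hg
    ext w i
    obtain ⟨v, rfl⟩ := EE_surj D w
    rw [hg]
    rfl
  refine ⟨y, ?_, ?_, ?_, ?_⟩
  · intro i
    fin_cases i
    · exact K.mul_mem h3 h1
    · exact K.mul_mem h3 (K.mul_mem h2 h4)
    · exact K.mul_mem h4 (K.mul_mem h2 (K.mul_mem h3 h2))
    · exact K.mul_mem h6 (K.mul_mem h3 (K.mul_mem h2 (K.mul_mem h4 h6)))
    · exact K.mul_mem h3 (K.mul_mem h6 (K.mul_mem h2 (K.mul_mem h4 (K.mul_mem h6 h5))))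
  · intro i
    apply hext
    intro v
    have h := hrep i
    rw [pow_succ, pow_two, mul_apply', mul_apply', h, h, h, fy3]
  · intro i j hij
    apply hext
    intro v
    have h := hrep i
    have h' := hrep j
    rw [pow_two, mul_apply', mul_apply', mul_apply', h', h, h', h, fy2 i j hij]
  · intro h
    have h7 : (l1 * u1) ![0, 1] = ![0, 1] := by
      have : y 0 = l1 * u1 := rfl
      rw [← this, h]
      rfl
    have h8 := congrFun h7 1
    have h9 := congrFun h7 0
    simp only [l1, u1, mul_apply', lo_0, lo_1, up_0, up_1] at h8 h9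
    simp at h9

end Cfsg.Agent.Lib.NatRoot
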