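import Mathlib
import Cfsg.Agent.Lib.NatRoot.Four
import Cfsg.Agent.Lib.A7Pres

/-!
# The natural module: main theorem
-/

set_option autoImplicit false
set_option linter.unusedSectionVars false
set_option linter.unusedVariables false

namespace Cfsg.Agent.Lib.NatRoot

open Cfsg.Agent.Lib.SL2NaturalModule Matrix

/-- A hom from the alternating group from a clique. -/
theorem hom_of_clique {G : Type*} [Group G] (y : Fin 5 → G) (h3 : ∀ i, y i ^ 3 = 1)
    (h2 : ∀ i j, i ≠ j → (y i * y j) ^ 2 = 1) (h1 : y 0 ≠ 1) :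
    ∃ φ : alternatingGroup (Fin 7) →* G, Function.Injective φ := by
  open Cfsg.Agent.Lib.A7Ord in
  let e : GamA7 ≃* alternatingGroup (Fin 7) := MulEquiv.ofBijective piA7 piA7_bijective
  open Cfsg.Agent.Lib.A7Ord in
  let ψ : GamA7 →* G := PresentedGroup.toGroup (lift_eq_one_of_rel y h3 h2)
  let φ : alternatingGroup (Fin 7) →* G := ψ.comp e.symm.toMonoidHom
  have hφ : φ (Cfsg.Agent.Lib.A7Ord.fA7 0) = y 0 := by
    have : e.symm (Cfsg.Agent.Lib.A7Ord.fA7 0) = PresentedGroup.of 0 := by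
      rw [MulEquiv.symm_apply_eq]
      exact (Cfsg.Agent.Lib.A7Ord.piA7_of 0).symm
    show ψ (e.symm (Cfsg.Agent.Lib.A7Ord.fA7 0)) = y 0
    rw [this]
    exact PresentedGroup.toGroup.of _
  haveI := Cfsg.Agent.Lib.A7Ord.simple_A7
  refine ⟨φ, ?_⟩
  have hn : φ.ker.Normal := inferInstance
  rcases hn.eq_bot_or_eq_top with h | h
  · exact (MonoidHom.ker_eq_bot_iff φ).1 h
  · exfalso
    apply h1
    have : Cfsg.Agent.Lib.A7Ord.fA7 0 ∈ φ.ker := by rw [h]; trivial
    rw [← hφ]
    exact this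

/-- The order of the general linear group in dimension four over the field of two elements. -/
theorem card_aut4 {W : Type*} [AddCommGroup W] [Module (ZMod 2) W] [Finite W] (hW : Nat.card W = 16) :
    Nat.card (W ≃ₗ[ZMod 2] W) = 20160 := by
  haveI : Module.Finite (ZMod 2) W := Module.Finite.of_finite
  have hr : Module.finrank (ZMod 2) W = 4 := by
    have h := Module.natCard_eq_pow_finrank (K := ZMod 2) (V := W)
    rw [hW, Nat.card_zmod] at h
    have : (2 : ℕ) ^ 4 = 2 ^ Module.finrank (ZMod 2) W := by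
      norm_num
      exact h
    exact (Nat.pow_right_injective (le_refl 2) this).symm
  let e : W ≃ₗ[ZMod 2] (Fin 4 → ZMod 2) := LinearEquiv.ofFinrankEq _ _ (by rw [hr]; simp)
  have h1 : Nat.card (W ≃ₗ[ZMod 2] W) = Nat.card ((Fin 4 → ZMod 2) ≃ₗ[ZMod 2] (Fin 4 → ZMod 2)) := by
    refine Nat.card_congr
      { toFun := fun f => e.symm.trans (f.trans e)
        invFun := fun f => e.trans (f.trans e.symm)
        left_inv := fun f => by ext w; simp
        right_inv := fun f => by ext w i; simp }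
  have h3 : Nat.card ((Fin 4 → ZMod 2) ≃ₗ[ZMod 2] (Fin 4 → ZMod 2)) =
      Nat.card (Matrix.GeneralLinearGroup (Fin 4) (ZMod 2)) :=
    Nat.card_congr
      ((Matrix.GeneralLinearGroup.toLin (n := Fin 4) (R := ZMod 2)).trans
        (LinearMap.GeneralLinearGroup.generalLinearEquiv _ _)).toEquiv.symm
  rw [h1, h3, Matrix.card_GL_field]
  simp [Fin.prod_univ_four, ZMod.card]

variable {p : ℕ} [hp : Fact p.Prime] {F : Type*} [Field F] [Algebra (ZMod p) F] [Finite F]

local notation "SL₂" => Matrix.SpecialLinearGroup (Fin 2) F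

theorem cjL_mul {W : Type*} [AddCommGroup W] [Module (ZMod p) W] (h g : Aut' p W) (l : AddSubgroup W) :
    cjL (h * g) l = cjL h (cjL g l) := by
  ext w
  simp only [mem_cjL]
  rw [_root_.mul_inv_rev, mul_apply']

/-- the action of invertible matrices -/
def Th (P : (Matrix (Fin 2) (Fin 2) F)ˣ) : Aut' p (Fin 2 → F) :=
  { toFun := fun w => P.1.mulVec w
    map_add' := fun a b => Matrix.mulVec_add _ _ _
    map_smul' := fun c w => Matrix.mulVec_smul _ _ _
    invFun := fun w => (P⁻¹).1.mulVec w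
    left_inv := fun w => by
      show (P⁻¹).1.mulVec (P.1.mulVec w) = w
      rw [Matrix.mulVec_mulVec, Units.inv_mul, Matrix.one_mulVec]
    right_inv := fun w => by
      show P.1.mulVec ((P⁻¹).1.mulVec w) = w
      rw [Matrix.mulVec_mulVec, Units.mul_inv, Matrix.one_mulVec] }

theorem Th_inv_apply (P : (Matrix (Fin 2) (Fin 2) F)ˣ) (w : Fin 2 → F) :
    (Th (p := p) P)⁻¹ w = (P⁻¹).1.mulVec w := rfl

/-- conjugates of determinant-one matrices -/
def conjSL (P : (Matrix (Fin 2) (Fin 2) F)ˣ) (m : SL₂) : SL₂ :=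
  ⟨P.1 * m.1 * (P⁻¹).1, by
    rw [Matrix.det_mul, Matrix.det_mul, m.2, mul_one, ← Matrix.det_mul, Units.mul_inv, Matrix.det_one]⟩

theorem Th_conj (P : (Matrix (Fin 2) (Fin 2) F)ˣ) (m : SL₂) :
    Th (p := p) P * act p m * (Th (p := p) P)⁻¹ = act p (conjSL P m) := by
  ext w i
  show (P.1.mulVec ((ent m).mulVec ((P⁻¹).1.mulVec w))) i = ((P.1 * m.1 * (P⁻¹).1).mulVec w) i
  rw [Matrix.mulVec_mulVec, Matrix.mulVec_mulVec]
  rfl

theorem exists_P {v₁ v₂ : Fin 2 → F} (hd : v₁ 0 * v₂ 1 - v₁ 1 * v₂ 0 ≠ 0) :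
    ∃ P : (Matrix (Fin 2) (Fin 2) F)ˣ, ∀ w, Th (p := p) P w = w 0 • v₁ + w 1 • v₂ := by
  let M : Matrix (Fin 2) (Fin 2) F := !![v₁ 0, v₂ 0; v₁ 1, v₂ 1]
  have hdet : M.det ≠ 0 := by
    rw [Matrix.det_fin_two_of]
    intro h
    apply hd
    linear_combination h
  have hu : IsUnit M := (Matrix.isUnit_iff_isUnit_det M).2 (isUnit_iff_ne_zero.2 hdet)
  refine ⟨hu.unit, fun w => ?_⟩
  show (hu.unit.1).mulVec w = _
  rw [hu.unit_spec]
  apply ext2
  · simp [M, Matrix.mulVec, dotProduct, Fin.sum_univ_two]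
    ring
  · simp [M, Matrix.mulVec, dotProduct, Fin.sum_univ_two]
    ring

theorem two_eq_zero_of {t : Aut' p (Fin 2 → F)} {σ : F ≃+* F} (hs : IsSemi t σ) {v : Fin 2 → F}
    (hv : t v = v) (hv0 : v ≠ 0) (hq : ∀ w, t (t w - w) = t w - w) {η : F} (hη : σ η ≠ η) :
    (2 : F) = 0 := by
  have h3 : ∀ x : F, σ (σ x) - σ x = σ x - x := by
    intro x
    have h := hq (x • v)
    rw [hs, hv, ← sub_smul, hs, hv] at h
    have := smul_cancel hv0 h
    rwa [map_sub] at this
  have h1 := h3 η
  have h2' := h3 (η * η)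
  simp only [map_mul] at h2'
  have h4 : 2 * (σ η - η) * (σ η - η) = 0 := by
    linear_combination h2' - (σ (σ η) + 2 * σ η - η) * h1
  have hne : σ η - η ≠ 0 := sub_ne_zero.2 hη
  by_contra h2
  exact mul_ne_zero (mul_ne_zero h2 hne) hne h4

theorem exists_det {t : Aut' p (Fin 2 → F)} {σ : F ≃+* F} (hs : IsSemi t σ)
    {π : AddSubgroup (Fin 2 → F)} (hπ : ∀ w, t w = w ↔ w ∈ π) (hcard : Nat.card π = Nat.card F)
    {v : Fin 2 → F} (hv : v ∈ π) (hv0 : v ≠ 0) {η : F} (hη : σ η ≠ η) :
    ∃ u ∈ π, v 0 * u 1 - v 1 * u 0 ≠ 0 := by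
  by_contra hall
  push Not at hall
  have hex : ∀ u : π, ∃ c : F, u.1 = c • v := by
    intro u
    have hd := hall u.1 u.2
    by_cases h0 : v 0 = 0
    · have h1 : v 1 ≠ 0 := by
        intro h1
        apply hv0
        apply ext2
        · simpa using h0
        · simpa using h1
      rw [h0, zero_mul, zero_sub, neg_eq_zero] at hd
      have hu0 : u.1 0 = 0 := (mul_eq_zero.1 hd).resolve_left h1
      refine ⟨u.1 1 / v 1, ext2 ?_ ?_⟩
      · simp [h0, hu0]
      · simp [h1]
    · refine ⟨u.1 0 / v 0, ext2 ?_ ?_⟩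
      · simp [h0]
      · simp only [Pi.smul_apply, smul_eq_mul]
        field_simp
        linear_combination hd
  choose c hc using hex
  have hinj : Function.Injective c := fun a b hab => Subtype.ext (by rw [hc a, hc b, hab])
  have hb := hinj.bijective_of_nat_card_le hcard.ge
  obtain ⟨u, hu⟩ := hb.2 η
  have h1 : t u.1 = u.1 := (hπ _).2 u.2
  rw [hc u, hu, hs, (hπ v).2 hv] at h1
  exact hη (smul_cancel hv0 h1)

theorem bar_spec {t : Aut' p (Fin 2 → F)} {σ : F ≃+* F} (hs : IsSemi t σ) {v₁ v₂ : Fin 2 → F}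
    (h1 : t v₁ = v₁) (h2 : t v₂ = v₂) {Θ : Aut' p (Fin 2 → F)}
    (hΘ : ∀ w, Θ w = w 0 • v₁ + w 1 • v₂) (w : Fin 2 → F) (i : Fin 2) :
    (Θ⁻¹ * t * Θ) w i = σ (w i) := by
  have e : (Θ⁻¹ * t * Θ) w = ![σ (w 0), σ (w 1)] := by
    apply Θ.injective
    simp only [mul_apply', apply_inv_self']
    rw [hΘ, hΘ, map_add, hs, hs, h1, h2]
    simp
  rw [e]
  fin_cases i <;> rfl

variable {GG TT : Subgroup (Aut' p (Fin 2 → F))}

/-- **The branch with a non-strongly-closed root subgroup.** -/
theorem TSys.nonSC (S : TSys p F GG TT) {t g a : Aut' p (Fin 2 → F)} (ht : t ∈ TT) (hg : g ∈ GG)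
    (ha : a ∈ QQ p F) (hgt : g * a * g⁻¹ = t) (hnt : t ∉ QQ p F) :
    Nat.card F = 4 ∧ Nonempty (↥GG ≃* ↥(alternatingGroup (Fin 7))) := by
  classical
  obtain ⟨σ, hσ⟩ := S.semi ht
  have ht1 : t ≠ 1 := fun h => hnt (h ▸ (QQ p F).one_mem)
  have htQ : t ∈ cj g (QQ p F) := by
    rw [mem_cj, ← hgt]
    have : g⁻¹ * (g * a * g⁻¹) * g = a := by group
    rwa [this]
  have hQG : QQ p F ≤ GG := by
    intro x hx
    obtain ⟨c, rfl⟩ := mem_QQ.1 hx
    exact S.hLG _
  set π := cjL g (ll F) with hπdef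
  have hπ : ∀ w, t w = w ↔ w ∈ π := fix_cj htQ ht1
  have hcardπ : Nat.card π = Nat.card F := by rw [hπdef, card_cjL, card_ll]
  obtain ⟨η, hη⟩ : ∃ η, σ η ≠ η := by
    by_contra h
    push Not at h
    have h1 : σ = 1 := RingEquiv.ext h
    rw [h1] at hσ
    exact hnt (S.mem_of_semi_one ht hσ)
  have hq : ∀ w, t (t w - w) = t w - w := fun w => fix_line htQ (comm_cj htQ w)
  set v₁ := g ![1, 0] with hv₁
  have hv₁π : v₁ ∈ π := by
    rw [hπdef, mem_cjL, hv₁, inv_apply_self']
    simp [mem_ll]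
  have hv₁0 : v₁ ≠ 0 := by
    intro h
    apply e1_ne (F := F)
    apply g.injective
    rw [map_zero]
    exact h
  have h2 := two_eq_zero_of hσ ((hπ _).2 hv₁π) hv₁0 hq hη
  have hone : (1 : F) + 1 = 0 := by rw [one_add_one_eq_two]; exact h2
  obtain ⟨v₂, hv₂π, hdet⟩ := exists_det hσ hπ hcardπ hv₁π hv₁0 hη
  obtain ⟨P, hP⟩ := exists_P (p := p) hdet
  set Θ : Aut' p (Fin 2 → F) := Th P with hΘ
  have hconjL : ∀ m : SL₂, Θ * act p m * Θ⁻¹ = act p (conjSL P m) := fun m => Th_conj P m
  have hbar := bar_spec hσ ((hπ _).2 hv₁π) ((hπ _).2 hv₂π) hP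
  set bar : Aut' p (Fin 2 → F) := Θ⁻¹ * t * Θ with hbardef
  have hη0 : η ≠ 0 := by
    rintro rfl
    exact hη (map_zero σ)
  have hη1 : η ≠ 1 := by
    rintro rfl
    exact hη (map_one σ)
  have hΘt : Θ * bar * Θ⁻¹ = t := by
    simp only [hbardef]
    group
  set Qt : Subgroup (Aut' p (Fin 2 → F)) := cj Θ⁻¹ (cj g (QQ p F)) with hQt
  have memQt : ∀ x, x ∈ Qt ↔ Θ * x * Θ⁻¹ ∈ cj g (QQ p F) := by
    intro x
    rw [hQt, mem_cj, inv_inv]
  have hfixbar : ∀ w, bar w = w ↔ Θ w ∈ π := by
    intro w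
    rw [← hπ]
    simp only [hbardef, mul_apply']
    constructor
    · intro h
      have := congrArg Θ h
      simpa using this
    · intro h
      rw [h, inv_apply_self']
  -- normalizing
  have hnorm : ∀ m : SL₂, bar * act p m = act p m * bar → ∀ x ∈ Qt, cd (act p m) x ∈ Qt := by
    intro m hc x hx
    set h := Θ * act p m * Θ⁻¹ with hh
    have hhG : h ∈ GG := by
      rw [hh, hconjL]
      exact S.hLG _
    have htc : t * h = h * t := by
      rw [← hΘt, hh]
      have e1 : Θ * bar * Θ⁻¹ * (Θ * act p m * Θ⁻¹) = Θ * (bar * act p m) * Θ⁻¹ := by group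
      have e2 : Θ * act p m * Θ⁻¹ * (Θ * bar * Θ⁻¹) = Θ * (act p m * bar) * Θ⁻¹ := by group
      rw [e1, e2, hc]
    have hl : cjL (h * g) (ll F) = cjL g (ll F) := by
      rw [cjL_mul]
      ext w
      rw [mem_cjL, ← hπdef, ← hπ, ← hπ]
      have e : t (h⁻¹ w) = h⁻¹ (t w) := by
        have e3 : t * h⁻¹ = h⁻¹ * t := by
          rw [mul_inv_eq_iff_eq_mul, mul_assoc, eq_inv_mul_iff_mul_eq, ← mul_assoc]
          exact htc.symm
        exact congrArg (fun z : Aut' p (Fin 2 → F) => z w) e3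
      rw [e]
      constructor
      · intro h3
        have := congrArg h h3
        simpa using this
      · intro h3
        rw [h3]
    have heq := S.eq_of_line h2 hη0 hη1 (GG.mul_mem hhG hg) hg hl
    rw [memQt]
    rw [memQt] at hx
    have e : Θ * cd (act p m) x * Θ⁻¹ = h * (Θ * x * Θ⁻¹) * h⁻¹ := by
      simp only [cd, hh]
      group
    rw [e, ← heq, cj_mul, mem_cj]
    have e' : h⁻¹ * (h * (Θ * x * Θ⁻¹) * h⁻¹) * h = Θ * x * Θ⁻¹ := by group
    rwa [e']
  have B : BaerData σ bar Qt :=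
    { h2 := h2
      hbar := hbar
      hmem := by
        rw [memQt, hΘt]
        exact htQ
      hfix := by
        intro x hx hx1 w hw
        rw [hfixbar, hπdef]
        have hx' := (memQt x).1 hx
        have hne : Θ * x * Θ⁻¹ ≠ 1 := by
          intro h
          apply hx1
          have : x = Θ⁻¹ * (Θ * x * Θ⁻¹) * Θ := by group
          rw [this, h]
          group
        rw [← fix_cj hx' hne]
        simp only [mul_apply', inv_apply_self']
        rw [hw]
      hfix' := by
        intro x hx w hw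
        have hx' := (memQt x).1 hx
        have h1 := fix_line hx' ((hfixbar w).1 hw)
        simp only [mul_apply', inv_apply_self'] at h1
        exact Θ.injective h1
      hcomm := by
        intro x hx w
        have hx' := (memQt x).1 hx
        rw [hfixbar, map_sub]
        have h1 := comm_cj hx' (Θ w)
        simp only [mul_apply', inv_apply_self'] at h1
        exact h1
      hcard := by
        rw [hQt, card_cj, card_cj, card_QQ]
      hnorm := by
        intro a ha x hx
        exact ⟨hnorm _ (bar_up_of hbar ha) x hx, hnorm _ (bar_lo_of hbar ha) x hx⟩ }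
  have hF0 : ∀ l, σ l = l → l = 0 ∨ l = 1 := fun l hl => B.fixed hη hl
  -- the order of the field
  haveI : Fintype F := Fintype.ofFinite F
  have hle4 : Nat.card F ≤ 4 := by
    rw [← hcardπ]
    let f : π → Bool × Bool := fun u =>
      (decide (Θ⁻¹ u.1 0 = 1), decide (Θ⁻¹ u.1 1 = 1))
    have hc : ∀ (u : π) (i : Fin 2), Θ⁻¹ u.1 i = 0 ∨ Θ⁻¹ u.1 i = 1 := by
      intro u i
      apply hF0
      rw [← hbar]
      have : bar (Θ⁻¹ u.1) = Θ⁻¹ u.1 := by
        rw [hfixbar, apply_inv_self']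
        exact u.2
      rw [this]
    have hf : Function.Injective f := by
      intro a b hab
      have h1 : (Θ⁻¹ a.1 0 = 1) ↔ (Θ⁻¹ b.1 0 = 1) := by
        simpa [f] using congrArg Prod.fst hab
      have h3 : (Θ⁻¹ a.1 1 = 1) ↔ (Θ⁻¹ b.1 1 = 1) := by
        simpa [f] using congrArg Prod.snd hab
      apply Subtype.ext
      apply (Θ⁻¹).injective
      apply ext2
      · rcases hc a 0 with ha | ha <;> rcases hc b 0 with hb | hb
        · rw [ha, hb]
        · exact absurd (h1.2 hb) (by rw [ha]; exact zero_ne_one)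
        · exact absurd (h1.1 ha) (by rw [hb]; exact zero_ne_one)
        · rw [ha, hb]
      · rcases hc a 1 with ha | ha <;> rcases hc b 1 with hb | hb
        · rw [ha, hb]
        · exact absurd (h3.2 hb) (by rw [ha]; exact zero_ne_one)
        · exact absurd (h3.1 ha) (by rw [hb]; exact zero_ne_one)
        · rw [ha, hb]
    have := Nat.card_le_card_of_injective f hf
    simpa using this
  have hηη : η + 1 ≠ 0 := by
    intro h
    apply hη1
    have h3 : η = -1 := eq_neg_of_add_eq_zero_left h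
    rw [h3]
    exact neg_eq_of_add_eq_zero_left hone
  have hηη1 : η + 1 ≠ 1 := by
    intro h
    apply hη0
    simpa using h
  have hηη2 : η ≠ η + 1 := by
    intro h
    have : (1 : F) = 0 := by
      have h3 : η + 1 = η + 0 := by rw [← h, add_zero]
      exact add_left_cancel h3
    exact one_ne_zero this
  have hcard4 : Nat.card F = 4 := by
    have hge3 : 3 ≤ Fintype.card F := by
      have hc3 : ({0, 1, η} : Finset F).card = 3 := by
        rw [Finset.card_eq_three]
        exact ⟨0, 1, η, zero_ne_one, hη0.symm, hη1.symm, rfl⟩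
      rw [← hc3]
      exact Finset.card_le_univ _
    have heven : 2 ∣ Fintype.card F := by
      have h1 : addOrderOf (1 : F) = 2 := by
        apply addOrderOf_eq_prime
        · rw [two_nsmul]
          exact hone
        · exact one_ne_zero
      rw [← h1, ← Nat.card_eq_fintype_card]
      exact addOrderOf_dvd_natCard _
    rw [Nat.card_eq_fintype_card] at hle4 ⊢
    obtain ⟨k, hk⟩ := heven
    omega
  have hall : ∀ x : F, x = 0 ∨ x = 1 ∨ x = η ∨ x = η + 1 := by
    intro x
    have hc4 : ({0, 1, η, η + 1} : Finset F).card = 4 := by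
      rw [Finset.card_eq_succ]
      refine ⟨0, {1, η, η + 1}, ?_, rfl, ?_⟩
      · simp [hη0.symm, hηη.symm]
      · rw [Finset.card_eq_three]
        exact ⟨1, η, η + 1, hη1.symm, hηη1.symm, hηη2, rfl⟩
    have huniv : ({0, 1, η, η + 1} : Finset F) = Finset.univ := by
      apply Finset.eq_univ_of_card
      rw [hc4, ← hcard4, Nat.card_eq_fintype_card]
    have : x ∈ ({0, 1, η, η + 1} : Finset F) := by
      rw [huniv]
      exact Finset.mem_univ x
    simpa using this
  have hsq : η * η = η + 1 := by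
    rcases hall (η * η) with h | h | h | h
    · exact absurd (mul_self_eq_zero.1 h) hη0
    · exfalso
      apply hη1
      have h3 : (η - 1) * (η - 1) = 0 := by
        linear_combination h - η * hone + hone
      exact sub_eq_zero.1 (mul_self_eq_zero.1 h3)
    · exfalso
      apply hη1
      exact mul_left_cancel₀ hη0 (by rw [h, mul_one])
    · exact h
  have hσω : σ η = η + 1 := by
    rcases hall (σ η) with h | h | h | h
    · exfalso
      apply hη0
      rw [← map_zero σ] at h
      exact σ.injective h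
    · exfalso
      apply hη1
      rw [← map_one σ] at h
      exact σ.injective h
    · exact absurd h hη
    · exact h
  have D : F4Data η := ⟨h2, hsq, hall⟩
  obtain ⟨xb, hxbQ, hxb⟩ := B.exists_xb D hσω hF0 hcard4
  have hrbar : Rep η bar fbar := rep_bar D hσω hbar
  have hmemK : ∀ x, x ∈ cj Θ⁻¹ GG ↔ Θ * x * Θ⁻¹ ∈ GG := by
    intro x
    rw [mem_cj, inv_inv]
  have hK1 : ∀ m : SL₂, act p m ∈ cj Θ⁻¹ GG := by
    intro m
    rw [hmemK, hconjL]
    exact S.hLG _
  have hK5 : bar ∈ cj Θ⁻¹ GG := by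
    rw [hmemK, hΘt]
    exact S.hTG ht
  have hK6 : xb ∈ cj Θ⁻¹ GG := by
    rw [hmemK]
    exact cj_le hg hQG ((memQt xb).1 hxbQ)
  obtain ⟨y, hyK, hy3, hy2, hy1⟩ := exists_clique (p := p) D hrbar hxb (cj Θ⁻¹ GG) (hK1 _) (hK1 _) (hK1 _) (hK1 _)
    hK5 hK6
  let y' : Fin 5 → GG := fun i => ⟨Θ * y i * Θ⁻¹, (hmemK _).1 (hyK i)⟩
  have hy'3 : ∀ i, y' i ^ 3 = 1 := by
    intro i
    apply Subtype.ext
    show (Θ * y i * Θ⁻¹) ^ 3 = 1
    rw [conj_pow, hy3]
    group
  have hy'2 : ∀ i j, i ≠ j → (y' i * y' j) ^ 2 = 1 := by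
    intro i j hij
    apply Subtype.ext
    show (Θ * y i * Θ⁻¹ * (Θ * y j * Θ⁻¹)) ^ 2 = 1
    have e : Θ * y i * Θ⁻¹ * (Θ * y j * Θ⁻¹) = Θ * (y i * y j) * Θ⁻¹ := by group
    rw [e, conj_pow, hy2 i j hij]
    group
  have hy'1 : y' 0 ≠ 1 := by
    intro h
    have h3 : Θ * y 0 * Θ⁻¹ = 1 := congrArg Subtype.val h
    apply hy1
    have : y 0 = Θ⁻¹ * (Θ * y 0 * Θ⁻¹) * Θ := by group
    rw [this, h3]
    group
  obtain ⟨φ, hφ⟩ := hom_of_clique y' hy'3 hy'2 hy'1
  haveI hfinG : Finite GG := inferInstance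
  have hdvd1 : 2520 ∣ Nat.card GG := by
    have := Subgroup.card_dvd_of_injective φ hφ
    rwa [Cfsg.Agent.Lib.A7Ord.card_A7] at this
  -- the characteristic
  have hp2 : p = 2 := by
    haveI : CharP F p := charP_of_injective_algebraMap (algebraMap (ZMod p) F).injective p
    have h3 : ((2 : ℕ) : F) = 0 := by exact_mod_cast h2
    have h4 : p ∣ 2 := (CharP.cast_eq_zero_iff F p 2).1 h3
    exact (Nat.prime_dvd_prime_iff_eq hp.out Nat.prime_two).1 h4
  -- an upper bound for the Sylow subgroup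
  have hT8 : Nat.card TT ≤ 8 := by
    have hsame : ∀ τ : F ≃+* F, τ ≠ 1 → τ = σ := by
      intro τ hτ
      have hτη : τ η ≠ η := by
        intro h
        apply hτ
        ext x
        rcases hall x with rfl | rfl | rfl | rfl
        · simp
        · simp
        · exact h
        · simp [h]
      have hτω : τ η = η + 1 := by
        rcases hall (τ η) with h | h | h | h
        · exfalso
          apply hη0
          rw [← map_zero τ] at h
          exact τ.injective h
        · exfalso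
          apply hη1
          rw [← map_one τ] at h
          exact τ.injective h
        · exact absurd h hτη
        · exact h
      ext x
      rcases hall x with rfl | rfl | rfl | rfl
      · simp
      · simp
      · rw [hτω, hσω]
      · simp [hτω, hσω]
    have hdich : ∀ t' ∈ TT, t' ∉ QQ p F → t⁻¹ * t' ∈ QQ p F := by
      intro t' ht' hn
      obtain ⟨τ, hτ⟩ := S.semi ht'
      have hτ1 : τ ≠ 1 := by
        intro h
        rw [h] at hτ
        exact hn (S.mem_of_semi_one ht' hτ)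
      have hτσ := hsame τ hτ1
      have hm := TT.mul_mem (TT.inv_mem ht) ht'
      obtain ⟨ρ, hρ⟩ := S.semi hm
      have h3 := hσ.mul hρ
      rw [mul_inv_cancel_left] at h3
      have h4 := h3.unique hτ
      rw [hτσ] at h4
      have h5 : ρ = 1 := by
        have : σ * ρ = σ * 1 := by rw [h4, mul_one]
        exact mul_left_cancel this
      rw [h5] at hρ
      exact S.mem_of_semi_one hm hρ
    let f : TT → Bool × QQ p F := fun u =>
      if h : u.1 ∈ QQ p F then (true, ⟨u.1, h⟩) else (false, ⟨t⁻¹ * u.1, hdich u.1 u.2 h⟩)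
    have hf : Function.Injective f := by
      intro a b hab
      apply Subtype.ext
      by_cases ha' : a.1 ∈ QQ p F <;> by_cases hb' : b.1 ∈ QQ p F
      · simp only [f, dif_pos ha', dif_pos hb'] at hab
        simpa using hab
      · simp only [f, dif_pos ha', dif_neg hb'] at hab
        simp at hab
      · simp only [f, dif_neg ha', dif_pos hb'] at hab
        simp at hab
      · simp only [f, dif_neg ha', dif_neg hb'] at hab
        simpa using hab
    have h3 := Nat.card_le_card_of_injective f hf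
    rw [Nat.card_prod, card_QQ, hcard4] at h3
    simpa using h3
  have hnot16 : ¬ 16 ∣ Nat.card GG := by
    intro h16
    subst hp2
    obtain ⟨K, hKc⟩ := Sylow.exists_subgroup_card_pow_prime (G := GG) 2 (n := 4) (by simpa using h16)
    let P : Subgroup (Aut' 2 (Fin 2 → F)) := K.map GG.subtype
    have hPG : P ≤ GG := by
      rintro _ ⟨a, _, rfl⟩
      exact a.2
    have hPc : Nat.card P = 16 := by
      have : Nat.card P = Nat.card K :=
        Nat.card_congr (K.equivMapOfInjective _ GG.subtype_injective).toEquiv.symm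
      rw [this, hKc]
      norm_num
    have hPp : IsPGroup 2 P := IsPGroup.of_card (n := 4) (by rw [hPc]; norm_num)
    obtain ⟨z, hz, hzT⟩ := S.hconj P hPG hPp
    let f : P → TT := fun x => ⟨z⁻¹ * x.1 * z, hzT x.1 x.2⟩
    have hf : Function.Injective f := by
      intro a b hab
      apply Subtype.ext
      have h3 : z⁻¹ * a.1 * z = z⁻¹ * b.1 * z := congrArg Subtype.val hab
      have h4 := mul_right_cancel h3
      exact mul_left_cancel h4
    have h3 := Nat.card_le_card_of_injective f hf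
    omega
  have hdvd2 : Nat.card GG ∣ 20160 := by
    subst hp2
    have hW : Nat.card (Fin 2 → F) = 16 := by
      rw [Nat.card_fun, hcard4]
      simp
    have := Subgroup.card_subgroup_dvd_card GG
    rwa [card_aut4 hW] at this
  have hcG : Nat.card GG = 2520 := by
    obtain ⟨k, hk⟩ := hdvd1
    have hk8 : k ∣ 8 := by
      have h3 : 2520 * k ∣ 2520 * 8 := by
        rw [← hk]
        exact hdvd2
      exact Nat.dvd_of_mul_dvd_mul_left (by norm_num) h3
    have hk1 : k = 1 := by
      have hk' : k ≤ 8 := Nat.le_of_dvd (by norm_num) hk8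
      interval_cases k
      · simp at hk8
      · rfl
      · exact absurd ⟨315, by rw [hk]⟩ hnot16
      · omega
      · exact absurd ⟨630, by rw [hk]⟩ hnot16
      · omega
      · omega
      · omega
      · exact absurd ⟨1260, by rw [hk]⟩ hnot16
    rw [hk, hk1]
  have hbij : Function.Bijective φ :=
    hφ.bijective_of_nat_card_le (by rw [Cfsg.Agent.Lib.A7Ord.card_A7, hcG])
  exact ⟨hcard4, ⟨(MulEquiv.ofBijective φ hbij).symm⟩⟩

/-- **The main theorem for the natural module.** -/
theorem TSys.main (S : TSys p F GG TT) :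
    (∀ g ∈ GG, ∀ m : SL₂, ∃ m' : SL₂, g * act p m * g⁻¹ = act p m') ∨
      (Nat.card F = 4 ∧ Nonempty (↥GG ≃* ↥(alternatingGroup (Fin 7)))) := by
  by_cases hSC : ∀ t ∈ TT, ∀ g ∈ GG, ∀ a ∈ QQ p F, g * a * g⁻¹ = t → t ∈ QQ p F
  · exact Or.inl (S.normal_of_SC hSC)
  · push Not at hSC
    obtain ⟨t, ht, g, hg, a, ha, hgt, hnt⟩ := hSC
    exact Or.inr (S.nonSC ht hg ha hgt hnt)

end Cfsg.Agent.Lib.NatRoot
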