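import Mathlib
import Cfsg.Prelude
import Cfsg.Agent.Lib.NatRoot.Main

/-!
# Transport of the natural-module theorem to a subgroup of a finite group
-/

set_option autoImplicit false
set_option linter.unusedSectionVars false
set_option linter.unusedVariables false

namespace Cfsg.Agent.Lib.NatRoot

open Cfsg.Agent.Lib.SL2NaturalModule Matrix

variable {X : Type*} [Group X] [Finite X] {p : ℕ} [hp : Fact p.Prime] {F : Type*} [Field F]
  [Algebra (ZMod p) F] [Finite F]

section
variable {V G : Subgroup X} (hGV : G ≤ Subgroup.normalizer (V : Set X))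

/-- conjugation on the normal subgroup -/
def cv (g : G) (v : V) : V :=
  ⟨(g : X) * v * (g : X)⁻¹, (Subgroup.mem_normalizer_iff.1 (hGV g.2) v).1 v.2⟩

theorem cv_val (g : G) (v : V) : (cv hGV g v : X) = (g : X) * v * (g : X)⁻¹ := rfl

theorem cv_mul (g : G) (a b : V) : cv hGV g (a * b) = cv hGV g a * cv hGV g b := by
  apply Subtype.ext
  simp only [cv_val, Subgroup.coe_mul]
  group

theorem cv_mul' (g h : G) (a : V) : cv hGV (g * h) a = cv hGV g (cv hGV h a) := by
  apply Subtype.ext
  simp only [cv_val, Subgroup.coe_mul]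
  group

theorem cv_one (a : V) : cv hGV 1 a = a := by
  apply Subtype.ext
  simp [cv_val]

theorem cv_inv_cv (g : G) (a : V) : cv hGV g⁻¹ (cv hGV g a) = a := by
  apply Subtype.ext
  simp only [cv_val, InvMemClass.coe_inv]
  group

theorem cv_cv_inv (g : G) (a : V) : cv hGV g (cv hGV g⁻¹ a) = a := by
  apply Subtype.ext
  simp only [cv_val, InvMemClass.coe_inv]
  group

variable (ψ : Additive V ≃+ (Fin 2 → F))

/-- the additive automorphism -/
def aeq (g : G) : (Fin 2 → F) ≃+ (Fin 2 → F) where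
  toFun w := ψ (Additive.ofMul (cv hGV g (Additive.toMul (ψ.symm w))))
  invFun w := ψ (Additive.ofMul (cv hGV g⁻¹ (Additive.toMul (ψ.symm w))))
  left_inv w := by
    simp [cv_inv_cv]
  right_inv w := by
    simp [cv_cv_inv]
  map_add' a b := by
    rw [map_add, toMul_add, cv_mul, ofMul_mul, map_add]

/-- the homomorphism to the automorphism group -/
def Phi : G →* Aut' p (Fin 2 → F) where
  toFun g := (aeq hGV ψ g).toLinearEquiv (fun c x => ZMod.map_smul (aeq hGV ψ g) c x)
  map_one' := by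
    apply LinearEquiv.ext
    intro w
    show ψ (Additive.ofMul (cv hGV 1 (Additive.toMul (ψ.symm w)))) = w
    simp [cv_one]
  map_mul' g h := by
    apply LinearEquiv.ext
    intro w
    show ψ (Additive.ofMul (cv hGV (g * h) (Additive.toMul (ψ.symm w)))) =
      ψ (Additive.ofMul (cv hGV g (Additive.toMul (ψ.symm
        (ψ (Additive.ofMul (cv hGV h (Additive.toMul (ψ.symm w)))))))))
    simp [cv_mul']

theorem Phi_apply (g : G) (v : V) :
    Phi (p := p) hGV ψ g (ψ (Additive.ofMul v)) = ψ (Additive.ofMul (cv hGV g v)) := by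
  show ψ (Additive.ofMul (cv hGV g (Additive.toMul (ψ.symm (ψ (Additive.ofMul v)))))) = _
  simp

theorem Phi_inj (hfaith : G ⊓ Subgroup.centralizer (V : Set X) = ⊥) :
    Function.Injective (Phi (p := p) hGV ψ) := by
  rw [injective_iff_map_eq_one]
  intro g hg
  have hc : (g : X) ∈ Subgroup.centralizer (V : Set X) := by
    rw [Subgroup.mem_centralizer_iff]
    intro v hv
    have h1 := Phi_apply (p := p) hGV ψ g ⟨v, hv⟩
    rw [hg] at h1
    have h2 := ψ.injective h1
    have h3 : (⟨v, hv⟩ : V) = cv hGV g ⟨v, hv⟩ := Additive.ofMul.injective h2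
    have h4 : v = (g : X) * v * (g : X)⁻¹ := congrArg Subtype.val h3
    exact eq_mul_inv_iff_mul_eq.1 h4
  have hm : (g : X) ∈ G ⊓ Subgroup.centralizer (V : Set X) := ⟨g.2, hc⟩
  rw [hfaith] at hm
  exact Subtype.ext ((Subgroup.mem_bot).1 hm)

end

/-- **Transport.** -/
theorem transport (V G L : Subgroup X) (hGV : G ≤ Subgroup.normalizer (V : Set X))
    (hfaith : G ⊓ Subgroup.centralizer (V : Set X) = ⊥) (hLG : L ≤ G)
    (hnat : Cfsg.IsNaturalSL2Module F V L)
    (hSyl : ∀ S : Sylow p ↥(G ⊓ Subgroup.normalizer (L : Set X)), ∀ P : Sylow p ↥G,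
      Nat.card S = Nat.card P) :
    (L.subgroupOf G).Normal ∨
      (Nat.card F = 4 ∧ Nonempty (↥G ≃* ↥(alternatingGroup (Fin 7)))) := by
  classical
  obtain ⟨hLN, ρ, ψ, hρs, hker, hact⟩ := hnat
  set Φ : G →* Aut' p (Fin 2 → F) := Phi hGV ψ with hΦ
  have hinj : Function.Injective Φ := Phi_inj hGV ψ hfaith
  -- the action of `L`
  have hΦL : ∀ l : L, Φ ⟨l.1, hLG l.2⟩ = act p (ρ l) := by
    intro l
    ext w i
    obtain ⟨v, rfl⟩ : ∃ v : V, ψ (Additive.ofMul v) = w :=
      ⟨Additive.toMul (ψ.symm w), by simp⟩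
    rw [hΦ, Phi_apply]
    obtain ⟨w', hw', hψ⟩ := hact l v
    have e : cv hGV ⟨l.1, hLG l.2⟩ v = w' := by
      apply Subtype.ext
      rw [hw']
      rfl
    rw [e, hψ]
    rfl
  -- the subgroup in the automorphism group
  let GG : Subgroup (Aut' p (Fin 2 → F)) := Φ.range
  let H : Subgroup X := G ⊓ Subgroup.normalizer (L : Set X)
  have hHG : H ≤ G := inf_le_left
  let inc : H →* G := Subgroup.inclusion hHG
  have hLH : ∀ l : L, (l : X) ∈ H := by
    intro l
    refine ⟨hLG l.2, ?_⟩
    show (l : X) ∈ Subgroup.normalizer (L : Set X)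
    rw [Subgroup.mem_normalizer_iff]
    intro h
    constructor
    · intro hh
      exact L.mul_mem (L.mul_mem l.2 hh) (L.inv_mem l.2)
    · intro hh
      have : h = (l : X)⁻¹ * ((l : X) * h * (l : X)⁻¹) * (l : X) := by group
      rw [this]
      exact L.mul_mem (L.mul_mem (L.inv_mem l.2) hh) l.2
  -- the root subgroup pulled back
  let Q₂ : Subgroup H := (QQ p F).comap (Φ.comp inc)
  have hQp : IsPGroup p (QQ p F) := by
    intro x
    obtain ⟨c, hc⟩ := mem_QQ.1 x.2
    refine ⟨1, ?_⟩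
    apply Subtype.ext
    have h1 : ∀ n : ℕ, (act p (up c) : Aut' p (Fin 2 → F)) ^ n = act p (up ((n : F) * c)) := by
      intro n
      induction n with
      | zero => simp [act_up_zero]
      | succ n ih =>
        rw [pow_succ, ih, ← act_up_add]
        congr 2
        push_cast
        ring
    simp only [Subgroup.coe_pow, pow_one, Subgroup.coe_one, hc]
    rw [h1]
    have hp0 : (p : F) = 0 := by
      have := ZModModule.char_nsmul_eq_zero p (1 : F)
      simpa using this
    rw [hp0, zero_mul, act_up_zero]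
  have hQ₂p : IsPGroup p Q₂ := by
    have hker' : ∀ x : Q₂, x.1 ∈ ((Φ.comp inc).ker) ∨ True := fun _ => Or.inr trivial
    have hinj' : Function.Injective (Φ.comp inc) :=
      hinj.comp (Subgroup.inclusion_injective hHG)
    exact hQp.comap_of_injective (Φ.comp inc) hinj'
  obtain ⟨S, hS⟩ := hQ₂p.exists_le_sylow
  -- the image of the Sylow subgroup
  let T₀ : Subgroup G := (S : Subgroup H).map inc
  have hT₀card : Nat.card T₀ = Nat.card S :=
    Nat.card_congr ((S : Subgroup H).equivMapOfInjective inc (Subgroup.inclusion_injective hHG)).toEquiv.symm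
  obtain ⟨P₀⟩ : Nonempty (Sylow p G) := inferInstance
  let R : Sylow p G := Sylow.ofCard T₀ (by
    rw [hT₀card, hSyl S P₀, Sylow.card_eq_multiplicity])
  have hR : (R : Subgroup G) = T₀ := Sylow.coe_ofCard _ _
  let TT : Subgroup (Aut' p (Fin 2 → F)) := T₀.map Φ
  have hLsurj : ∀ m : Matrix.SpecialLinearGroup (Fin 2) F, ∃ l : L, ρ l = m := hρs
  have hactmem : ∀ m : Matrix.SpecialLinearGroup (Fin 2) F, ∃ l : L, Φ ⟨l.1, hLG l.2⟩ = act p m := by
    intro m
    obtain ⟨l, rfl⟩ := hLsurj m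
    exact ⟨l, hΦL l⟩
  have hTS : TSys p F GG TT :=
    { hLG := by
        intro m
        obtain ⟨l, hl⟩ := hactmem m
        exact ⟨_, hl⟩
      hTG := Subgroup.map_le_range _ _
      hTp := by
        have h1 : IsPGroup p T₀ := S.isPGroup'.map inc
        exact h1.map Φ
      hTN := by
        rintro _ ⟨_, ⟨g, hg, rfl⟩, rfl⟩ m
        obtain ⟨l, hl⟩ := hactmem m
        have hgN : (g : X) ∈ Subgroup.normalizer (L : Set X) := g.2.2
        have hm : (g : X) * l * (g : X)⁻¹ ∈ L := (Subgroup.mem_normalizer_iff.1 hgN l).1 l.2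
        refine ⟨ρ ⟨_, hm⟩, ?_⟩
        rw [← hΦL, ← hl]
        rw [← map_inv, ← map_mul, ← map_mul]
        congr 1
      hUT := by
        intro c
        obtain ⟨l, hl⟩ := hactmem (up c)
        have hlH : (⟨l.1, hLH l⟩ : H) ∈ Q₂ := by
          show Φ (inc ⟨l.1, hLH l⟩) ∈ QQ p F
          have : inc ⟨l.1, hLH l⟩ = ⟨l.1, hLG l.2⟩ := rfl
          rw [this, hl]
          exact up_mem c
        exact ⟨_, ⟨_, hS hlH, rfl⟩, hl⟩
      hconj := by
        intro P hP hPp
        let P' : Subgroup G := P.comap Φ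
        have hP' : IsPGroup p P' := hPp.comap_of_injective Φ hinj
        obtain ⟨R', hR'⟩ := hP'.exists_le_sylow
        obtain ⟨z, hz⟩ := MulAction.exists_smul_eq G R R'
        refine ⟨Φ z, ⟨z, rfl⟩, ?_⟩
        intro x hx
        obtain ⟨g, rfl⟩ := hP hx
        have hgP : g ∈ P' := hx
        have hgR : g ∈ (R' : Subgroup G) := hR' hgP
        rw [← hz, Sylow.smul_def, Sylow.pointwise_smul_def, Subgroup.mem_pointwise_smul_iff_inv_smul_mem] at hgR
        have hm : z⁻¹ * g * z ∈ T₀ := by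
          rw [← hR]
          simpa [MulAut.smul_def] using hgR
        refine ⟨z⁻¹ * g * z, hm, ?_⟩
        simp }
  rcases hTS.main with h | h
  · left
    refine ⟨fun n hn g => ?_⟩
    let l : L := ⟨n.1, hn⟩
    have hl : Φ n = act p (ρ l) := hΦL l
    obtain ⟨m', hm'⟩ := h (Φ g) ⟨g, rfl⟩ (ρ l)
    obtain ⟨l', hl'⟩ := hactmem m'
    have h1 : Φ (g * n * g⁻¹) = Φ ⟨l'.1, hLG l'.2⟩ := by
      rw [hl', ← hm', map_mul, map_mul, map_inv, hl]
    have h2 := hinj h1
    rw [Subgroup.mem_subgroupOf, h2]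
    exact l'.2
  · right
    refine ⟨h.1, ?_⟩
    obtain ⟨e⟩ := h.2
    exact ⟨(MonoidHom.ofInjective hinj).trans e⟩

end Cfsg.Agent.Lib.NatRoot
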